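import Cfsg.Agent.Lib.OrderDegrees.NineD8.Geometry
import Mathlib.Data.Complex.Basic
import Mathlib.Algebra.BigOperators.Ring.Finset

/-!
# Four generalized characters of norm four: the shared constituent has degree one
-/

set_option autoImplicit false
set_option maxHeartbeats 800000

namespace CfsgLib.OrderDegrees.NineD8

open Finset

variable {ι : Type*} [Fintype ι] [DecidableEq ι]

/-- The second moments `(α, γ, β)` when the involution classes are unfused. -/
noncomputable def momentsA : Fin 4 → ℂ × ℂ × ℂ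
  | 0 => (1 / 2, 0, 1)
  | 1 => (1, 0, 1 / 2)
  | 2 => (1, 0, 1 / 2)
  | 3 => (1 / 2, 0, 1)

/-- The second moments when the central involution is fused with a reflection. -/
noncomputable def momentsB : Fin 4 → ℂ × ℂ × ℂ
  | 0 => (8, 0, 1)
  | 1 => (11 / 2, 3 / 2, 1 / 2)
  | 2 => (11 / 2, -(3 / 2), 1 / 2)
  | 3 => (2, 0, 1)

/-- The coefficient vectors of four norm four lifts, with two point coordinates for every
irreducible character. -/
structure Config (ι : Type*) [Fintype ι] [DecidableEq ι] where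
  /-- coefficients -/
  m : Fin 4 → ι → ℤ
  /-- degrees -/
  deg : ι → ℤ
  /-- the trivial character -/
  o : ι
  /-- first coordinate -/
  A : ι → ℂ
  /-- second coordinate -/
  B : ι → ℂ
  /-- moments -/
  M : Fin 4 → ℂ × ℂ × ℂ
  deg_pos : ∀ k, 0 < deg k
  deg_o : deg o = 1
  gram : ∀ i j, ∑ k, m i k * m j k = if i = j then 4 else if i.val + j.val = 3 then 1 else 2
  m_o : ∀ i, m i o = if i.val < 2 then 1 else 0
  deg_sum : ∀ i, ∑ k, m i k * deg k = 0
  cong : ∀ k, (9 : ℤ) ∣ deg k + 4 * ∑ i, m i k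
  A_sum : ∀ i, ∑ k, (m i k * deg k : ℂ) * A k = 0
  B_sum : ∀ i, ∑ k, (m i k * deg k : ℂ) * B k = 0
  AA_sum : ∀ i, ∑ k, (m i k * deg k : ℂ) * A k ^ 2 = (M i).1
  AB_sum : ∀ i, ∑ k, (m i k * deg k : ℂ) * A k * B k = (M i).2.1
  BB_sum : ∀ i, ∑ k, (m i k * deg k : ℂ) * B k ^ 2 = (M i).2.2
  pattern : M = momentsA ∨ M = momentsB

namespace Config

variable (T : Config ι)

/-- The support. -/
def supp (i : Fin 4) : Finset ι := univ.filter fun k => T.m i k ≠ 0

theorem mem_supp {i : Fin 4} {k : ι} : k ∈ T.supp i ↔ T.m i k ≠ 0 := by simp [supp]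

theorem unit_value (i : Fin 4) (k : ι) : T.m i k = 0 ∨ T.m i k = 1 ∨ T.m i k = -1 := by
  have hg := T.gram i i
  rw [if_pos rfl, ← add_sum_erase _ _ (mem_univ k)] at hg
  have hrest : ∀ l ∈ univ.erase k, 0 ≤ T.m i l * T.m i l := fun l _ => mul_self_nonneg _
  have h0 := sum_nonneg hrest
  by_contra hne
  push Not at hne
  have h4 : 4 ≤ T.m i k * T.m i k := by
    obtain ⟨h1, h2, h3⟩ := hne
    rcases lt_or_ge (T.m i k) 0 with h | h
    · nlinarith [show T.m i k ≤ -2 by omega]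
    · nlinarith [show 2 ≤ T.m i k by omega]
  have hz : ∀ l ∈ univ.erase k, T.m i l = 0 := fun l hl =>
    mul_self_eq_zero.1 ((sum_eq_zero_iff_of_nonneg hrest).1 (by omega) l hl)
  have hd := T.deg_sum i
  rw [← add_sum_erase _ _ (mem_univ k), sum_eq_zero fun l hl => by rw [hz l hl, zero_mul],
    add_zero] at hd
  rcases mul_eq_zero.1 hd with h | h
  · exact hne.1 h
  · exact (T.deg_pos k).ne' h

theorem sq_eq_one {i : Fin 4} {k : ι} (h : T.m i k ≠ 0) : T.m i k * T.m i k = 1 := by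
  rcases T.unit_value i k with e | e | e
  · exact absurd e h
  · rw [e]; rfl
  · rw [e]; rfl

theorem card_supp (i : Fin 4) : (T.supp i).card = 4 := by
  have hg := T.gram i i
  rw [if_pos rfl, ← sum_filter_of_ne (p := fun k => T.m i k ≠ 0)
    (fun k _ h e => h (by simp [e]))] at hg
  rw [sum_congr rfl (fun k hk => T.sq_eq_one (mem_filter.1 hk).2), sum_const] at hg
  simp only [nsmul_eq_mul, mul_one] at hg
  exact_mod_cast hg

theorem exists_fourth (i : Fin 4) {a b c : ι} (ha : T.m i a ≠ 0) (hb : T.m i b ≠ 0)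
    (hc : T.m i c ≠ 0) (hab : a ≠ b) (hac : a ≠ c) (hbc : b ≠ c) :
    ∃ l, T.m i l ≠ 0 ∧ l ≠ a ∧ l ≠ b ∧ l ≠ c ∧ (∀ k, T.m i k ≠ 0 → k = a ∨ k = b ∨ k = c ∨ k = l) ∧
      ∀ {R : Type} [AddCommMonoid R] (f : ι → R), (∀ k, T.m i k = 0 → f k = 0) →
        ∑ k, f k = f a + f b + f c + f l := by
  have hsub : ({a, b, c} : Finset ι) ⊆ T.supp i := by
    intro k hk
    simp only [mem_insert, mem_singleton] at hk
    rcases hk with rfl | rfl | rfl <;> simpa [mem_supp]
  have h3 : ({a, b, c} : Finset ι).card = 3 := card_eq_three.2 ⟨a, b, c, hab, hac, hbc, rfl⟩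
  obtain ⟨l, hl⟩ := card_eq_one.1 (show (T.supp i \ {a, b, c}).card = 1 by
    rw [card_sdiff_of_subset hsub, T.card_supp, h3])
  have hlm : l ∈ T.supp i \ {a, b, c} := hl ▸ mem_singleton_self l
  simp only [mem_sdiff, mem_insert, mem_singleton, not_or, mem_supp] at hlm
  obtain ⟨hl0, hla, hlb, hlc⟩ := hlm
  have hmem : ∀ k, T.m i k ≠ 0 → k = a ∨ k = b ∨ k = c ∨ k = l := by
    intro k hk
    by_cases hk' : k ∈ ({a, b, c} : Finset ι)
    · simp only [mem_insert, mem_singleton] at hk'; tauto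
    · have : k ∈ T.supp i \ {a, b, c} := mem_sdiff.2 ⟨T.mem_supp.2 hk, hk'⟩
      rw [hl, mem_singleton] at this; tauto
  refine ⟨l, hl0, hla, hlb, hlc, hmem, fun {R} _ f hf => ?_⟩
  rw [← sum_subset (subset_univ ({a, b, c, l} : Finset ι)) fun k _ hk => hf k (by
    by_contra h
    rcases hmem k h with rfl | rfl | rfl | rfl <;> simp at hk)]
  rw [sum_insert (by simp [hab, hac, Ne.symm hla]), sum_insert (by simp [hbc, Ne.symm hlb]),
    sum_insert (by simp [Ne.symm hlc]), sum_singleton]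
  ac_rfl

/-- The signed degree. -/
noncomputable def d (i : Fin 4) (k : ι) : ℂ := (T.m i k * T.deg k : ℤ)

theorem d_ne (i : Fin 4) {k : ι} (h : T.m i k ≠ 0) : T.d i k ≠ 0 := by
  rw [d, Int.cast_ne_zero]; exact mul_ne_zero h (T.deg_pos k).ne'

theorem d_eq {i j : Fin 4} {k : ι} (h : T.m i k = T.m j k) : T.d i k = T.d j k := by rw [d, d, h]

theorem d_o {i : Fin 4} (h : i.val < 2) : T.d i T.o = 1 := by simp [d, T.m_o, h, T.deg_o]

/-- The determinant of a moment matrix. -/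
noncomputable def det (i : Fin 4) : ℂ := (T.M i).1 * (T.M i).2.2 - (T.M i).2.1 ^ 2

/-- The adjugate form on differences of points. -/
noncomputable def form (i : Fin 4) (k a b : ι) : ℂ :=
  adjForm (T.M i).1 (T.M i).2.1 (T.M i).2.2 (T.A a - T.A k) (T.B a - T.B k) (T.A b - T.A k)
    (T.B b - T.B k)

theorem form_identities (i : Fin 4) {k a b : ι} (hk : T.m i k ≠ 0) (ha : T.m i a ≠ 0)
    (hb : T.m i b ≠ 0) (hka : k ≠ a) (hkb : k ≠ b) (hab : a ≠ b) :
    T.d i k * T.form i k a b = T.det i ∧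
      T.d i a * T.d i k * T.form i k a a = (T.d i a + T.d i k) * T.det i := by
  obtain ⟨l, hl0, -, -, -, -, hsum⟩ := T.exists_fourth i hk ha hb hka hkb hab
  have s0 := hsum (fun k => T.m i k * T.deg k) (fun k e => by simp [e])
  have sA := hsum (fun k => (T.m i k * T.deg k : ℂ) * T.A k) (fun k e => by simp [e])
  have sB := hsum (fun k => (T.m i k * T.deg k : ℂ) * T.B k) (fun k e => by simp [e])
  have sAA := hsum (fun k => (T.m i k * T.deg k : ℂ) * T.A k ^ 2) (fun k e => by simp [e])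
  have sAB := hsum (fun k => (T.m i k * T.deg k : ℂ) * T.A k * T.B k) (fun k e => by simp [e])
  have sBB := hsum (fun k => (T.m i k * T.deg k : ℂ) * T.B k ^ 2) (fun k e => by simp [e])
  rw [T.deg_sum] at s0
  rw [T.A_sum] at sA
  rw [T.B_sum] at sB
  rw [T.AA_sum] at sAA
  rw [T.AB_sum] at sAB
  rw [T.BB_sum] at sBB
  refine moment_identities (dk := T.d i k) (di := T.d i a) (dj := T.d i b) (dl := T.d i l)
    (ak := T.A k) (ai := T.A a) (aj := T.A b) (al := T.A l) (bk := T.B k) (bi := T.B a) (bj := T.B b)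
    (bl := T.B l) (T.d_ne i hl0) ?_ ?_ ?_ ?_ ?_ ?_
  · simp only [d]; exact_mod_cast s0.symm
  · simp only [d]; push_cast; exact sA.symm
  · simp only [d]; push_cast; exact sB.symm
  · simp only [d]; push_cast; exact sAA.symm
  · simp only [d]; push_cast; exact sAB.symm
  · simp only [d]; push_cast; exact sBB.symm

/-- Four numbers among `0, ±1` summing to `c`. -/
theorem four_values {c : ℤ} {x : Fin 4 → ℤ} (h : ∀ i, x i = 0 ∨ x i = 1 ∨ x i = -1)
    (hs : x 0 + x 1 + x 2 + x 3 = c) (h0 : x 0 = 1) (hc : c = 2) :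
    (x 1 = 1 ∧ x 2 = 0 ∧ x 3 = 0) ∨ (x 1 = 0 ∧ x 2 = 1 ∧ x 3 = 0) ∨
      (x 1 = 0 ∧ x 2 = 0 ∧ x 3 = 1) ∨ (x 1 ≠ 0 ∧ x 2 ≠ 0 ∧ x 3 ≠ 0) := by
  have := h 1; have := h 2; have := h 3; omega

theorem mul_values (i j : Fin 4) (k : ι) :
    T.m i k * T.m j k = 0 ∨ T.m i k * T.m j k = 1 ∨ T.m i k * T.m j k = -1 := by
  rcases T.unit_value i k with e | e | e <;> rcases T.unit_value j k with f | f | f <;> simp [e, f]

theorem eq_of_mul {i j : Fin 4} {k : ι} (h : T.m i k * T.m j k = 1) : T.m j k = T.m i k := by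
  rcases T.unit_value i k with e | e | e <;> rcases T.unit_value j k with f | f | f <;>
    simp [e, f] at h ⊢

theorem eq_neg_of_mul {i j : Fin 4} {k : ι} (h : T.m i k * T.m j k = -1) :
    T.m j k = -T.m i k := by
  rcases T.unit_value i k with e | e | e <;> rcases T.unit_value j k with f | f | f <;>
    simp [e, f] at h ⊢

theorem eq_zero_of_mul {i j : Fin 4} {k : ι} (hi : T.m i k ≠ 0) (h : T.m i k * T.m j k = 0) :
    T.m j k = 0 := (mul_eq_zero.1 h).resolve_left hi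

/-- Two lifts with product two cannot have the same support. -/
theorem false_of_same_supp {i j : Fin 4} (hij : ∑ k, T.m i k * T.m j k = 2)
    (h : ∀ k, T.m i k ≠ 0 → T.m j k ≠ 0) : False := by
  have hsupp : T.supp i = T.supp j :=
    eq_of_subset_of_card_le (fun k hk => T.mem_supp.2 (h k (T.mem_supp.1 hk)))
      (by rw [T.card_supp, T.card_supp])
  have hsq : ∑ k, (T.m i k - T.m j k) * (T.m i k - T.m j k) = 4 := by
    have h1 := T.gram i i; have h2 := T.gram j j
    rw [if_pos rfl] at h1 h2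
    simp only [sub_mul, mul_sub, sum_sub_distrib, mul_comm (T.m j _) (T.m i _)]
    omega
  have hval : ∀ k, T.m i k - T.m j k = 0 ∨ (T.m i k - T.m j k) * (T.m i k - T.m j k) = 4 := by
    intro k
    by_cases hk : T.m i k = 0
    · left
      have : k ∉ T.supp j := hsupp ▸ fun h' => T.mem_supp.1 h' hk
      rw [T.mem_supp, not_not] at this
      omega
    · rcases T.unit_value i k with e | e | e <;> rcases T.unit_value j k with f | f | f
      all_goals first
        | exact absurd e hk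
        | exact absurd f (h k hk)
        | (rw [e, f]; norm_num)
  obtain ⟨k₀, hk₀⟩ : ∃ k, T.m i k - T.m j k ≠ 0 := by
    by_contra hall
    push Not at hall
    simp [hall] at hsq
  have h4 := (hval k₀).resolve_left hk₀
  rw [← add_sum_erase _ _ (mem_univ k₀), h4] at hsq
  have hsq0 : ∑ k ∈ univ.erase k₀, (T.m i k - T.m j k) * (T.m i k - T.m j k) = 0 := by linarith
  have hz : ∀ k ∈ univ.erase k₀, T.m i k - T.m j k = 0 := fun k hk =>
    mul_self_eq_zero.1 ((sum_eq_zero_iff_of_nonneg fun l _ => mul_self_nonneg _).1 hsq0 k hk)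
  have hd : ∑ k, (T.m i k - T.m j k) * T.deg k = 0 := by
    simp only [sub_mul, sum_sub_distrib, T.deg_sum, sub_self]
  rw [← add_sum_erase _ _ (mem_univ k₀), sum_eq_zero fun k hk => by rw [hz k hk, zero_mul],
    add_zero] at hd
  rcases mul_eq_zero.1 hd with h' | h'
  · exact hk₀ h'
  · exact (T.deg_pos k₀).ne' h'

/-- The common constituent of the first two lifts and the remaining two of the first. -/
theorem exists_P (i j : Fin 4) (hij : i.val < 2 ∧ j.val < 2 ∧ i ≠ j) :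
    ∃ P a b, P ≠ T.o ∧ a ≠ T.o ∧ b ≠ T.o ∧ P ≠ a ∧ P ≠ b ∧ a ≠ b ∧
      T.m i P ≠ 0 ∧ T.m i a ≠ 0 ∧ T.m i b ≠ 0 ∧
      (∀ k, T.m i k ≠ 0 → k = T.o ∨ k = P ∨ k = a ∨ k = b) ∧
      T.m j P = T.m i P ∧ T.m j a = 0 ∧ T.m j b = 0 := by
  obtain ⟨hi, hj, hne⟩ := hij
  have hoi : T.m i T.o = 1 := by simp [T.m_o, hi]
  have hoj : T.m j T.o = 1 := by simp [T.m_o, hj]
  have ho : T.o ∈ T.supp i := T.mem_supp.2 (by omega)
  obtain ⟨x, y, z, hxy, hxz, hyz, he⟩ := card_eq_three.1 (show ((T.supp i).erase T.o).card = 3 by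
    rw [card_erase_of_mem ho, T.card_supp])
  have hx : x ∈ (T.supp i).erase T.o := by simp [he]
  have hy : y ∈ (T.supp i).erase T.o := by simp [he]
  have hz : z ∈ (T.supp i).erase T.o := by simp [he]
  simp only [mem_erase, mem_supp] at hx hy hz
  have hall : ∀ k, T.m i k ≠ 0 → k = T.o ∨ k = x ∨ k = y ∨ k = z := fun k hk => by
    by_cases e : k = T.o
    · exact Or.inl e
    · have : k ∈ (T.supp i).erase T.o := mem_erase.2 ⟨e, T.mem_supp.2 hk⟩
      simp only [he, mem_insert, mem_singleton] at this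
      exact Or.inr this
  obtain ⟨l, -, hlo, hlx, hly, hmem, hsum⟩ := T.exists_fourth i (by omega : T.m i T.o ≠ 0) hx.2 hy.2
    hx.1.symm hy.1.symm hxy
  have hlz : l = z := by
    rcases hmem z hz.2 with e | e | e | e
    · exact absurd e hz.1
    · exact absurd e hxz.symm
    · exact absurd e hyz.symm
    · exact e.symm
  subst hlz
  have hg : ∑ k, T.m i k * T.m j k = 2 := by
    rw [T.gram, if_neg hne, if_neg]; omega
  have hs := hsum (fun k => T.m i k * T.m j k) (fun k e => by simp [e])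
  rw [hg] at hs
  rcases four_values (x := ![T.m i T.o * T.m j T.o, T.m i x * T.m j x, T.m i y * T.m j y,
    T.m i l * T.m j l]) (fun r => by fin_cases r <;> exact T.mul_values i j _) hs.symm
    (by simp [hoi, hoj]) rfl with ⟨a1, a2, a3⟩ | ⟨a1, a2, a3⟩ | ⟨a1, a2, a3⟩ | ⟨a1, a2, a3⟩ <;>
    simp only [Matrix.cons_val] at a1 a2 a3
  · exact ⟨x, y, l, hx.1, hy.1, hlo, hxy, hxz, hyz, hx.2, hy.2, hz.2, fun k hk => by
      rcases hall k hk with e | e | e | e <;> tauto, T.eq_of_mul a1, T.eq_zero_of_mul hy.2 a2,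
      T.eq_zero_of_mul hz.2 a3⟩
  · exact ⟨y, x, l, hy.1, hx.1, hlo, hxy.symm, hyz, hxz, hy.2, hx.2, hz.2, fun k hk => by
      rcases hall k hk with e | e | e | e <;> tauto, T.eq_of_mul a2, T.eq_zero_of_mul hx.2 a1,
      T.eq_zero_of_mul hz.2 a3⟩
  · exact ⟨l, x, y, hlo, hx.1, hy.1, hxz.symm, hyz.symm, hxy, hz.2, hx.2, hy.2, fun k hk => by
      rcases hall k hk with e | e | e | e <;> tauto, T.eq_of_mul a3, T.eq_zero_of_mul hx.2 a1,
      T.eq_zero_of_mul hy.2 a2⟩
  · refine (T.false_of_same_supp hg fun k hk h0 => ?_).elim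
    rcases hall k hk with rfl | rfl | rfl | rfl
    · omega
    · exact a1 (by rw [h0, mul_zero])
    · exact a2 (by rw [h0, mul_zero])
    · exact a3 (by rw [h0, mul_zero])

/-- A product of two linear forms vanishes on one of two lines. -/
theorem two_lines {x y k₁ k₂ : ℂ} (h : (x - k₁ * y) * (x - k₂ * y) = 0) :
    ∃ k : ℂ, (k = k₁ ∨ k = k₂) ∧ x = k * y := by
  rcases mul_eq_zero.1 h with h | h
  · exact ⟨k₁, Or.inl rfl, sub_eq_zero.1 h⟩
  · exact ⟨k₂, Or.inr rfl, sub_eq_zero.1 h⟩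

/-- In both patterns a direction on which the first two forms agree is not perpendicular to a
direction on which the `i`-th and `t`-th agree. -/
theorem perp_zero {M : Fin 4 → ℂ × ℂ × ℂ} (hM : M = momentsA ∨ M = momentsB) {i t : Fin 4}
    (hit : i = 0 ∧ t = 2 ∨ i = 1 ∧ t = 3) {x y u v : ℂ}
    (hxy : ((M 1).1 * (M 1).2.2 - (M 1).2.1 ^ 2) * adjForm (M 0).1 (M 0).2.1 (M 0).2.2 x y x y =
      ((M 0).1 * (M 0).2.2 - (M 0).2.1 ^ 2) * adjForm (M 1).1 (M 1).2.1 (M 1).2.2 x y x y)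
    (huv : ((M t).1 * (M t).2.2 - (M t).2.1 ^ 2) * adjForm (M i).1 (M i).2.1 (M i).2.2 u v u v =
      ((M i).1 * (M i).2.2 - (M i).2.1 ^ 2) * adjForm (M t).1 (M t).2.1 (M t).2.2 u v u v)
    (hp : adjForm (M i).1 (M i).2.1 (M i).2.2 x y u v = 0) :
    (x = 0 ∧ y = 0) ∨ (u = 0 ∧ v = 0) := by
  have fin : ∀ {y v k l c : ℂ}, c ≠ 0 → y * v * c = 0 →
      (k * y = 0 ∧ y = 0) ∨ (l * v = 0 ∧ v = 0) := by
    intro y v k l c hc h
    rcases mul_eq_zero.1 ((mul_eq_zero.1 h).resolve_right hc) with e | e <;> simp [e]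
  rcases hM with rfl | rfl
  · rcases hit with ⟨rfl, rfl⟩ | ⟨rfl, rfl⟩ <;> norm_num [momentsA, adjForm] at hxy huv hp
    · obtain ⟨k, hk, rfl⟩ := two_lines (x := x) (y := y) (k₁ := 1) (k₂ := -1)
        (by linear_combination 2 * hxy)
      obtain ⟨l, hl, rfl⟩ := two_lines (x := u) (y := v) (k₁ := 1) (k₂ := -1)
        (by linear_combination 2 * huv)
      refine fin (c := k * l + 1 / 2) ?_ (by linear_combination hp)
      rcases hk with rfl | rfl <;> rcases hl with rfl | rfl <;> norm_num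
    · obtain ⟨k, hk, rfl⟩ := two_lines (x := x) (y := y) (k₁ := 1) (k₂ := -1)
        (by linear_combination 2 * hxy)
      obtain ⟨l, hl, rfl⟩ := two_lines (x := u) (y := v) (k₁ := 1) (k₂ := -1)
        (by linear_combination -2 * huv)
      refine fin (c := k * l / 2 + 1) ?_ (by linear_combination hp)
      rcases hk with rfl | rfl <;> rcases hl with rfl | rfl <;> norm_num
  · rcases hit with ⟨rfl, rfl⟩ | ⟨rfl, rfl⟩ <;> norm_num [momentsB, adjForm] at hxy huv hp
    · obtain ⟨k, hk, rfl⟩ := two_lines (x := x) (y := y) (k₁ := 4) (k₂ := 20 / 7)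
        (by linear_combination -(2 / 7 : ℂ) * hxy)
      obtain ⟨l, hl, rfl⟩ := two_lines (x := u) (y := v) (k₁ := -4) (k₂ := -(20 / 7))
        (by linear_combination -(2 / 7 : ℂ) * huv)
      refine fin (c := k * l + 8) ?_ (by linear_combination hp)
      rcases hk with rfl | rfl <;> rcases hl with rfl | rfl <;> norm_num
    · obtain ⟨k, hk, rfl⟩ := two_lines (x := x) (y := y) (k₁ := 4) (k₂ := 20 / 7)
        (by linear_combination -(2 / 7 : ℂ) * hxy)
      obtain ⟨l, hl, rfl⟩ := two_lines (x := u) (y := v) (k₁ := 2) (k₂ := 10)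
        (by linear_combination 2 * huv)
      refine fin (c := k * l / 2 - 3 / 2 * (k + l) + 11 / 2) ?_ (by linear_combination hp)
      rcases hk with rfl | rfl <;> rcases hl with rfl | rfl <;> norm_num

/-- In both patterns no non-zero null direction of the first two forms is isotropic. -/
theorem isotropic_zero {M : Fin 4 → ℂ × ℂ × ℂ} (hM : M = momentsA ∨ M = momentsB) {x y : ℂ}
    (hxy : ((M 1).1 * (M 1).2.2 - (M 1).2.1 ^ 2) * adjForm (M 0).1 (M 0).2.1 (M 0).2.2 x y x y =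
      ((M 0).1 * (M 0).2.2 - (M 0).2.1 ^ 2) * adjForm (M 1).1 (M 1).2.1 (M 1).2.2 x y x y)
    (h0 : adjForm (M 0).1 (M 0).2.1 (M 0).2.2 x y x y = 0) : x = 0 ∧ y = 0 := by
  have fin : ∀ {y k c : ℂ}, c ≠ 0 → y * y * c = 0 → k * y = 0 ∧ y = 0 := by
    intro y k c hc h
    simp [mul_self_eq_zero.1 ((mul_eq_zero.1 h).resolve_right hc)]
  rcases hM with rfl | rfl
  · norm_num [momentsA, adjForm] at hxy h0
    obtain ⟨k, hk, rfl⟩ := two_lines (x := x) (y := y) (k₁ := 1) (k₂ := -1)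
      (by linear_combination 2 * hxy)
    refine fin (c := k * k + 1 / 2) ?_ (by linear_combination h0)
    rcases hk with rfl | rfl <;> norm_num
  · norm_num [momentsB, adjForm] at hxy h0
    obtain ⟨k, hk, rfl⟩ := two_lines (x := x) (y := y) (k₁ := 4) (k₂ := 20 / 7)
      (by linear_combination -(2 / 7 : ℂ) * hxy)
    refine fin (c := k * k + 8) ?_ (by linear_combination h0)
    rcases hk with rfl | rfl <;> norm_num

theorem det_ne (i : Fin 4) : T.det i ≠ 0 := by
  rcases T.pattern with h | h <;> fin_cases i <;> norm_num [det, h, momentsA, momentsB]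

theorem o_ne {i : Fin 4} (h : i.val < 2) : T.m i T.o ≠ 0 := by simp [T.m_o, h]

theorem exists_third (i : Fin 4) (a b : ι) : ∃ c, T.m i c ≠ 0 ∧ c ≠ a ∧ c ≠ b := by
  have h2 : ({a, b} : Finset ι).card < (T.supp i).card := by
    rw [T.card_supp]; exact (card_insert_le _ _).trans_lt (by simp)
  obtain ⟨c, hc, hc'⟩ := exists_mem_notMem_of_card_lt_card h2
  simp only [mem_insert, mem_singleton, not_or] at hc'
  exact ⟨c, T.mem_supp.1 hc, hc'.1, hc'.2⟩

/-- A constituent common to the first two lifts lies on a null direction, off the origin. -/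
theorem P_geometry {P : ι} (hPo : P ≠ T.o) (hP : T.m 0 P ≠ 0) (h01 : T.m 1 P = T.m 0 P)
    (i : Fin 4) (hi : i.val < 2) :
    (1 + T.d 0 P) * T.det i = T.d 0 P * T.form i T.o P P := by
  have hiP : T.m i P = T.m 0 P := by
    obtain rfl | rfl : i = 0 ∨ i = 1 := by omega
    · rfl
    · exact h01
  obtain ⟨q, hq, hqo, hqP⟩ := T.exists_third i T.o P
  have := (T.form_identities i (T.o_ne hi) (hiP ▸ hP) hq hPo.symm hqo.symm hqP.symm).2
  rw [T.d_o hi, mul_one, T.d_eq hiP] at this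
  linear_combination -this

/-- Two constituents of one of the first two lifts, other than the common one, cannot both lie in
a third lift. -/
theorem no_double {i t : Fin 4} (hit : i = 0 ∧ t = 2 ∨ i = 1 ∧ t = 3) {P a b : ι}
    (hPo : P ≠ T.o) (hao : a ≠ T.o) (hbo : b ≠ T.o) (hPa : P ≠ a) (hPb : P ≠ b) (hab : a ≠ b)
    (hP : T.m 0 P ≠ 0) (h01 : T.m 1 P = T.m 0 P) (ha : T.m i a ≠ 0)
    (hb : T.m i b ≠ 0) (hta : T.m t a = T.m i a) (htb : T.m t b = T.m i b) : False := by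
  have hi : i.val < 2 := by rcases hit with ⟨rfl, -⟩ | ⟨rfl, -⟩ <;> decide
  have hiP : T.m i P = T.m 0 P := by
    rcases hit with ⟨rfl, -⟩ | ⟨rfl, -⟩
    · rfl
    · exact h01
  have hPi : T.m i P ≠ 0 := hiP ▸ hP
  obtain ⟨c, hc, hca, hcb⟩ := T.exists_third t a b
  have ePa := (T.form_identities i (T.o_ne hi) hPi ha hPo.symm hao.symm hPa).1
  have ePb := (T.form_identities i (T.o_ne hi) hPi hb hPo.symm hbo.symm hPb).1
  have e1 := (T.form_identities i ha hb hPi hab hPa.symm hPb.symm).2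
  have e2 := (T.form_identities t (hta ▸ ha) (htb ▸ hb) hc hab hca.symm hcb.symm).2
  rw [T.d_eq hta, T.d_eq htb] at e2
  rw [T.d_o hi, one_mul] at ePa ePb
  have hperp : adjForm (T.M i).1 (T.M i).2.1 (T.M i).2.2 (T.A P - T.A T.o) (T.B P - T.B T.o)
      (T.A b - T.A a) (T.B b - T.B a) = 0 := by
    simp only [form, adjForm] at ePa ePb ⊢
    linear_combination ePb - ePa
  have hnull : T.det t * T.form i a b b = T.det i * T.form t a b b := by
    refine mul_left_cancel₀ (mul_ne_zero (T.d_ne i hb) (T.d_ne i ha)) ?_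
    linear_combination T.det t * e1 - T.det i * e2
  have hq0 := T.P_geometry hPo hP h01 0 (by decide)
  have hq1 := T.P_geometry hPo hP h01 1 (by decide)
  have hqi := T.P_geometry hPo hP h01 i hi
  have hdP := T.d_ne 0 hP
  have hpq : T.det 1 * T.form 0 T.o P P = T.det 0 * T.form 1 T.o P P := by
    refine mul_left_cancel₀ hdP ?_
    linear_combination T.det 0 * hq1 - T.det 1 * hq0
  have hne : ¬ (T.A P - T.A T.o = 0 ∧ T.B P - T.B T.o = 0) := fun e => T.det_ne i (by
    rw [← ePa, form, adjForm, e.1, e.2]; ring)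
  obtain ⟨hu0, hv0⟩ := (perp_zero T.pattern hit hpq hnull hperp).resolve_left hne
  have hsum : T.d i a + T.d i b = 0 := by
    simp only [form, adjForm, hu0, hv0] at e1
    have : (T.d i b + T.d i a) * T.det i = 0 := by linear_combination -e1
    linear_combination (mul_eq_zero.1 this).resolve_right (T.det_ne i)
  obtain ⟨l, -, -, -, -, hmem, hs⟩ := T.exists_fourth i hPi ha hb hPa hPb hab
  have hl : T.o = l := by
    rcases hmem T.o (T.o_ne hi) with e | e | e | e
    · exact absurd e hPo.symm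
    · exact absurd e hao.symm
    · exact absurd e hbo.symm
    · exact e
  subst hl
  have h0 := hs (fun k => T.m i k * T.deg k) (fun k e => by simp [e])
  rw [T.deg_sum] at h0
  have h0' : (0 : ℂ) = T.d i P + T.d i a + T.d i b + T.d i T.o := by
    simp only [d]; exact_mod_cast h0
  rw [T.d_o hi] at h0'
  have hPm1 : 1 + T.d 0 P = 0 := by rw [← T.d_eq hiP]; linear_combination -h0' - hsum
  rw [hPm1, zero_mul] at hq0
  exact hne (isotropic_zero T.pattern hpq ((mul_eq_zero.1 hq0.symm).resolve_left hdP))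

theorem mul_eq_of_supp {i j : Fin 4} {k : ι} (h : T.m j k = T.m i k) (hi : T.m i k ≠ 0) :
    T.m i k * T.m j k = 1 := by rw [h]; exact T.sq_eq_one hi

/-- The structure of a third lift meeting one of the first two in two constituents. -/
theorem exists_B {i j t : Fin 4} (hit : i = 0 ∧ j = 1 ∧ t = 2 ∨ i = 1 ∧ j = 0 ∧ t = 3) :
    ∃ P B C, P ≠ T.o ∧ B ≠ T.o ∧ C ≠ T.o ∧ P ≠ B ∧ P ≠ C ∧ B ≠ C ∧
      T.m i P ≠ 0 ∧ T.m i B ≠ 0 ∧ T.m i C ≠ 0 ∧
      (∀ k, T.m i k ≠ 0 → k = T.o ∨ k = P ∨ k = B ∨ k = C) ∧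
      T.m j P = T.m i P ∧ T.m j B = 0 ∧ T.m j C = 0 ∧
      T.m t P = T.m i P ∧ T.m t B = T.m i B ∧ T.m t C = 0 := by
  have hij : i.val < 2 ∧ j.val < 2 ∧ i ≠ j := by
    rcases hit with ⟨rfl, rfl, -⟩ | ⟨rfl, rfl, -⟩ <;> decide
  obtain ⟨P, a, b, hPo, hao, hbo, hPa, hPb, hab, hP, ha, hb, hall, hjP, hja, hjb⟩ :=
    T.exists_P i j hij
  have hto : T.m t T.o = 0 := by
    rcases hit with ⟨-, -, rfl⟩ | ⟨-, -, rfl⟩ <;> simp [T.m_o]
  have hg : ∑ k, T.m i k * T.m t k = 2 := by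
    rw [T.gram]; rcases hit with ⟨rfl, -, rfl⟩ | ⟨rfl, -, rfl⟩ <;> decide
  obtain ⟨l, -, -, -, -, hmem, hs⟩ := T.exists_fourth i hP ha hb hPa hPb hab
  have hl : T.o = l := by
    rcases hmem T.o (T.o_ne hij.1) with e | e | e | e
    · exact absurd e hPo.symm
    · exact absurd e hao.symm
    · exact absurd e hbo.symm
    · exact e
  subst hl
  have h := hs (fun k => T.m i k * T.m t k) (fun k e => by simp [e])
  rw [hg, hto, mul_zero, add_zero] at h
  have vP := T.mul_values i t P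
  have va := T.mul_values i t a
  have vb := T.mul_values i t b
  rcases (show (T.m i P * T.m t P = 0 ∧ T.m i a * T.m t a = 1 ∧ T.m i b * T.m t b = 1) ∨
      (T.m i P * T.m t P = 1 ∧ T.m i a * T.m t a = 1 ∧ T.m i b * T.m t b = 0) ∨
      (T.m i P * T.m t P = 1 ∧ T.m i a * T.m t a = 0 ∧ T.m i b * T.m t b = 1) by omega) with
    ⟨-, h2, h3⟩ | ⟨h1, h2, h3⟩ | ⟨h1, h2, h3⟩
  · rcases hit with ⟨rfl, rfl, rfl⟩ | ⟨rfl, rfl, rfl⟩
    · exact (T.no_double (Or.inl ⟨rfl, rfl⟩) hPo hao hbo hPa hPb hab hP hjP ha hb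
        (T.eq_of_mul h2) (T.eq_of_mul h3)).elim
    · exact (T.no_double (Or.inr ⟨rfl, rfl⟩) hPo hao hbo hPa hPb hab (hjP ▸ hP) hjP.symm ha hb
        (T.eq_of_mul h2) (T.eq_of_mul h3)).elim
  · exact ⟨P, a, b, hPo, hao, hbo, hPa, hPb, hab, hP, ha, hb, hall, hjP, hja, hjb,
      T.eq_of_mul h1, T.eq_of_mul h2, T.eq_zero_of_mul hb h3⟩
  · exact ⟨P, b, a, hPo, hbo, hao, hPb, hPa, hab.symm, hP, hb, ha,
      fun k hk => by rcases hall k hk with e | e | e | e <;> tauto, hjP, hjb, hja,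
      T.eq_of_mul h1, T.eq_of_mul h3, T.eq_zero_of_mul ha h2⟩

/-- The second and third lifts share only their common constituent. -/
theorem no_cross_two {P a b : ι} (hPo : P ≠ T.o) (hao : a ≠ T.o) (hPa : P ≠ a) (hPb : P ≠ b)
    (hab : a ≠ b) (hP : T.m 1 P ≠ 0) (ha : T.m 1 a ≠ 0) (hb : T.m 1 b ≠ 0)
    (h2P : T.m 2 P = T.m 1 P) (h2a : T.m 2 a = T.m 1 a) (h2b : T.m 2 b = -T.m 1 b) : False := by
  have hb2 : T.m 2 b ≠ 0 := by omega
  have hd : T.d 2 b = -T.d 1 b := by simp [d, h2b]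
  have f1 := (T.form_identities 1 hP hb ha hPb hPa hab.symm).2
  have f2 := (T.form_identities 2 (h2P ▸ hP) hb2 (h2a ▸ ha) hPb hPa hab.symm).2
  have g1 := (T.form_identities 1 hP ha hb hPa hPb hab)
  have g2 := (T.form_identities 2 (h2P ▸ hP) (h2a ▸ ha) hb2 hPa hPb hab)
  have hpa := (T.form_identities 1 hP (T.o_ne (by decide)) ha hPo hPa hao.symm).1
  rw [T.d_eq h2P, hd] at f2
  rw [T.d_eq h2P, T.d_eq h2a] at g2
  have hdet : T.det 2 = T.det 1 := by
    rcases T.pattern with h | h <;> norm_num [det, h, momentsA, momentsB]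
  rw [hdet] at f2 g2
  have hdP := T.d_ne 1 hP
  have hdb := T.d_ne 1 hb
  have hM1 : (T.M 2).1 = (T.M 1).1 := by
    rcases T.pattern with h | h <;> norm_num [h, momentsA, momentsB]
  have hM2 : (T.M 2).2.1 = -(T.M 1).2.1 := by
    rcases T.pattern with h | h <;> norm_num [h, momentsA, momentsB]
  have hM3 : (T.M 2).2.2 = (T.M 1).2.2 := by
    rcases T.pattern with h | h <;> norm_num [h, momentsA, momentsB]
  simp only [form, adjForm, hM1, hM2, hM3] at f1 f2 g1 g2 hpa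
  set x := T.A a - T.A P
  set y := T.B a - T.B P
  set u := T.A b - T.A P
  set v := T.B b - T.B P
  set γ := (T.M 1).2.1
  have hcross : γ * (u * v) * T.d 1 P * T.d 1 b ≠ 0 := by
    intro e
    refine mul_ne_zero hdP (T.det_ne 1) ?_
    linear_combination (1 / 2 : ℂ) * (-f1 - f2) + (-2 : ℂ) * e
  have hxy : γ * (x * y) = 0 := by
    refine (mul_eq_zero.1 (show (T.d 1 a * T.d 1 P) * (γ * (x * y)) = 0 by
      linear_combination (1 / 4 : ℂ) * (g2.2 - g1.2))).resolve_left (mul_ne_zero (T.d_ne 1 ha) hdP)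
  have hxv : γ * (x * v + y * u) = 0 := by
    refine (mul_eq_zero.1 (show T.d 1 P * (γ * (x * v + y * u)) = 0 by
      linear_combination (1 / 2 : ℂ) * (g2.1 - g1.1))).resolve_left hdP
  obtain ⟨⟨⟨hγ, hu, hv⟩, -⟩, -⟩ : ((γ ≠ 0 ∧ u ≠ 0 ∧ v ≠ 0) ∧ T.d 1 P ≠ 0) ∧ T.d 1 b ≠ 0 := by
    simpa [mul_ne_zero_iff] using hcross
  have hxy' := (mul_eq_zero.1 hxy).resolve_left hγ
  have hxv' := (mul_eq_zero.1 hxv).resolve_left hγ
  have hx : x = 0 := by
    rcases mul_eq_zero.1 hxy' with e | e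
    · exact e
    · rw [e, zero_mul, add_zero] at hxv'; exact (mul_eq_zero.1 hxv').resolve_right hv
  have hy : y = 0 := by
    rw [hx, zero_mul, zero_add] at hxv'; exact (mul_eq_zero.1 hxv').resolve_right hu
  refine T.det_ne 1 ?_
  rw [← hpa, hx, hy]; ring

/-- The first and last lifts share only their common constituent. -/
theorem no_cross_three {P a b : ι} (hPo : P ≠ T.o) (hao : a ≠ T.o) (hPa : P ≠ a) (hPb : P ≠ b)
    (hab : a ≠ b) (hP : T.m 0 P ≠ 0) (ha : T.m 0 a ≠ 0) (hb : T.m 0 b ≠ 0)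
    (h2P : T.m 2 P = T.m 0 P) (h3P : T.m 3 P = T.m 0 P) (h2a : T.m 2 a = T.m 0 a)
    (h3a : T.m 3 a = T.m 0 a) (h3b : T.m 3 b = -T.m 0 b) : False := by
  have hb3 : T.m 3 b ≠ 0 := by omega
  have hd : T.d 3 b = -T.d 0 b := by simp [d, h3b]
  have f1 := (T.form_identities 0 hP hb ha hPb hPa hab.symm).2
  have f3 := (T.form_identities 3 (h3P ▸ hP) hb3 (h3a ▸ ha) hPb hPa hab.symm).2
  have g1 := (T.form_identities 0 hP ha hb hPa hPb hab).2
  have g3 := (T.form_identities 3 (h3P ▸ hP) (h3a ▸ ha) hb3 hPa hPb hab).2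
  obtain ⟨c, hc, hcP, hca⟩ := T.exists_third 2 P a
  have g2 := (T.form_identities 2 (h2P ▸ hP) (h2a ▸ ha) hc hPa hcP.symm hca.symm).2
  have hpa := (T.form_identities 0 hP (T.o_ne (by decide)) ha hPo hPa hao.symm).1
  rw [T.d_eq h3P, hd] at f3
  rw [T.d_eq h3P, T.d_eq h3a] at g3
  rw [T.d_eq h2P, T.d_eq h2a] at g2
  have hdP := T.d_ne 0 hP
  have hdb := T.d_ne 0 hb
  have hda := T.d_ne 0 ha
  obtain ⟨x, hxe⟩ : ∃ x, T.A a - T.A P = x := ⟨_, rfl⟩
  obtain ⟨y, hye⟩ : ∃ y, T.B a - T.B P = y := ⟨_, rfl⟩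
  rcases T.pattern with h | h <;>
    norm_num [form, adjForm, det, h, momentsA, momentsB] at f1 f3 g1 g2 g3 hpa
  · exact hdP (by linear_combination -(f1 + f3))
  · rw [hxe, hye] at g1 g2 g3 hpa
    have hxx : x * x = 0 := (mul_eq_zero.1 (show (T.d 0 a * T.d 0 P) * (x * x) = 0 by
      linear_combination (-1 / 3 : ℂ) * g1 + (4 / 3 : ℂ) * g3)).resolve_left (mul_ne_zero hda hdP)
    have hx : x = 0 := mul_self_eq_zero.1 hxx
    rw [hx] at g1 g2 hpa
    have hyy : y * y = 0 := (mul_eq_zero.1 (show (T.d 0 a * T.d 0 P) * (y * y) = 0 by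
      linear_combination (-1 / 80 : ℂ) * g1 + (1 / 5 : ℂ) * g2)).resolve_left (mul_ne_zero hda hdP)
    rw [mul_self_eq_zero.1 hyy] at hpa
    norm_num at hpa

/-- The configuration of the lifts. -/
theorem exists_shape : ∃ P B B' D, P ≠ T.o ∧ B ≠ T.o ∧ B' ≠ T.o ∧ D ≠ T.o ∧
    P ≠ B ∧ P ≠ B' ∧ D ≠ P ∧ D ≠ B ∧ D ≠ B' ∧
    T.m 0 P ≠ 0 ∧ T.m 1 P = T.m 0 P ∧ T.m 2 P = T.m 0 P ∧ T.m 3 P = T.m 0 P ∧
    T.m 0 B ≠ 0 ∧ T.m 2 B = T.m 0 B ∧ T.m 1 B' ≠ 0 ∧ T.m 3 B' = T.m 1 B' ∧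
    T.m 2 D ≠ 0 ∧ T.m 3 D = T.m 2 D ∧ T.m 0 D = 0 ∧ T.m 1 D = 0 := by
  obtain ⟨P, B, C, hPo, hBo, hCo, hPB, hPC, hBC, hP, hB, hC, hall, h1P, h1B, h1C, h2P, h2B, h2C⟩ :=
    T.exists_B (i := 0) (j := 1) (t := 2) (Or.inl ⟨rfl, rfl, rfl⟩)
  obtain ⟨P', B', C', hP'o, hB'o, hC'o, hPB', hPC', hBC', hP', hB', hC', hall', h0P', h0B', h0C',
      h3P', h3B', h3C'⟩ :=
    T.exists_B (i := 1) (j := 0) (t := 3) (Or.inr ⟨rfl, rfl, rfl⟩)
  have hPP' : P' = P := by
    rcases hall P' (h0P' ▸ hP') with e | e | e | e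
    · exact absurd e hP'o
    · exact e
    · subst e; exact absurd h1B hP'
    · subst e; exact absurd h1C hP'
  subst hPP'
  have h3P : T.m 3 P' = T.m 0 P' := by rw [h3P', h1P]
  have hP2 : T.m 2 P' ≠ 0 := h2P ▸ hP
  have hs0 := T.exists_fourth 0 (T.o_ne (by decide)) hP hB hPo.symm hBo.symm hPB
  have hs1 := T.exists_fourth 1 (T.o_ne (by decide)) hP' hB' hP'o.symm hB'o.symm hPB'
  obtain ⟨l0, -, hl0a, hl0b, hl0c, hmem0, hsum0⟩ := hs0
  obtain rfl : l0 = C := by
    rcases hmem0 C hC with e | e | e | e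
    · exact absurd e hCo
    · exact absurd e hPC.symm
    · exact absurd e hBC.symm
    · exact e.symm
  obtain ⟨l1, -, -, -, -, hmem1, hsum1⟩ := hs1
  obtain rfl : l1 = C' := by
    rcases hmem1 C' hC' with e | e | e | e
    · exact absurd e hC'o
    · exact absurd e hPC'.symm
    · exact absurd e hBC'.symm
    · exact e.symm
  -- the third lift meets the second only in `P'`
  have h2o : T.m 2 T.o = 0 := by simp [T.m_o]
  have h3o : T.m 3 T.o = 0 := by simp [T.m_o]
  have hP12 : T.m 1 P' * T.m 2 P' = 1 := T.mul_eq_of_supp (by rw [h2P, h1P]) hP'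
  have hz2 : T.m 2 B' = 0 ∧ T.m 2 l1 = 0 := by
    have h := hsum1 (fun k => T.m 1 k * T.m 2 k) (fun k e => by simp [e])
    rw [T.gram, if_neg (by decide), if_pos (by decide)] at h
    norm_num [h2o, hP12] at h
    have va := T.mul_values 1 2 B'
    have vb := T.mul_values 1 2 l1
    rcases (show (T.m 1 B' * T.m 2 B' = 0 ∧ T.m 1 l1 * T.m 2 l1 = 0) ∨
        (T.m 1 B' * T.m 2 B' = 1 ∧ T.m 1 l1 * T.m 2 l1 = -1) ∨
        (T.m 1 B' * T.m 2 B' = -1 ∧ T.m 1 l1 * T.m 2 l1 = 1) by omega) with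
      ⟨ha, hb⟩ | ⟨ha, hb⟩ | ⟨ha, hb⟩
    · exact ⟨T.eq_zero_of_mul hB' ha, T.eq_zero_of_mul hC' hb⟩
    · exact (T.no_cross_two hP'o hB'o hPB' hPC' hBC' hP' hB' hC' (by rw [h2P, h1P])
        (T.eq_of_mul ha) (T.eq_neg_of_mul hb)).elim
    · exact (T.no_cross_two hP'o hC'o hPC' hPB' hBC'.symm hP' hC' hB' (by rw [h2P, h1P])
        (T.eq_of_mul hb) (T.eq_neg_of_mul ha)).elim
  have hout : ∀ k, T.m 2 k ≠ 0 → k ≠ P' → k ≠ B → T.m 0 k = 0 ∧ T.m 1 k = 0 := by
    intro k hk hkP hkB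
    constructor
    · by_contra e
      rcases hall k e with rfl | rfl | rfl | rfl
      · exact hk h2o
      · exact hkP rfl
      · exact hkB rfl
      · exact hk h2C
    · by_contra e
      rcases hall' k e with rfl | rfl | rfl | rfl
      · exact hk h2o
      · exact hkP rfl
      · exact hk hz2.1
      · exact hk hz2.2
  obtain ⟨x, hx, hxP, hxB⟩ := T.exists_third 2 P' B
  obtain ⟨y, hy, hyP, hyB, hyx, -, hsum2⟩ :=
    T.exists_fourth 2 hP2 (h2B ▸ hB) hx hPB hxP.symm hxB.symm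
  have hP23 : T.m 2 P' * T.m 3 P' = 1 := T.mul_eq_of_supp (by rw [h3P, h2P]) hP2
  have h := hsum2 (fun k => T.m 2 k * T.m 3 k) (fun k e => by simp [e])
  rw [T.gram, if_neg (by decide), if_neg (by decide)] at h
  norm_num [hP23] at h
  -- the last lift avoids `B`
  have h3B : T.m 3 B = 0 := by
    have h' := hsum0 (fun k => T.m 0 k * T.m 3 k) (fun k e => by simp [e])
    rw [T.gram, if_neg (by decide), if_pos (by decide)] at h'
    norm_num [h3o, T.mul_eq_of_supp h3P hP] at h'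
    rcases T.mul_values 0 3 B with e | e | e
    · exact T.eq_zero_of_mul hB e
    · exact (T.no_cross_three hPo hBo hPB hPC hBC hP hB hC h2P h3P h2B (T.eq_of_mul e)
        (T.eq_neg_of_mul (by omega))).elim
    · -- then the two other constituents of the third lift sum to two
      exfalso
      have h3 : T.m 3 B = -T.m 0 B := T.eq_neg_of_mul e
      have h3C : T.m 3 l0 = T.m 0 l0 := T.eq_of_mul (by omega)
      have hB2 : T.m 2 B * T.m 3 B = -1 := by rw [h2B]; exact e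
      have := T.mul_values 2 3 x
      have := T.mul_values 2 3 y
      have h4 : T.m 2 x * T.m 3 x = 1 := by omega
      have hx3 : T.m 3 x ≠ 0 := fun e' => by simp [e'] at h4
      obtain ⟨l3, -, -, -, -, hmem3, -⟩ := T.exists_fourth 3 (h3P ▸ hP) (by omega : T.m 3 B ≠ 0)
        (h3C ▸ hC) hPB hPC hBC
      have hB'3 : T.m 3 B' ≠ 0 := h3B' ▸ hB'
      have hl3 : B' = l3 := by
        rcases hmem3 B' hB'3 with e' | e' | e' | e'
        · exact absurd e' hPB'.symm
        · subst e'; exact absurd h1B hB'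
        · subst e'; exact absurd h1C hB'
        · exact e'
      subst hl3
      rcases hmem3 x hx3 with e' | e' | e' | e'
      · exact hxP e'
      · exact hxB e'
      · exact hx (e' ▸ h2C)
      · exact hx (e' ▸ hz2.1)
  rw [h3B, mul_zero] at h
  have vx := T.mul_values 2 3 x
  have vy := T.mul_values 2 3 y
  rcases (show T.m 2 x * T.m 3 x = 1 ∨ T.m 2 y * T.m 3 y = 1 by omega) with e | e
  · refine ⟨P', B, B', x, hPo, hBo, hB'o, fun e' => hx (e' ▸ h2o), hPB, hPB', hxP, hxB,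
      fun e' => hx (e' ▸ hz2.1), hP, h1P, h2P, h3P, hB, h2B, hB', h3B', hx, T.eq_of_mul e, ?_, ?_⟩
    · exact (hout x hx hxP hxB).1
    · exact (hout x hx hxP hxB).2
  · refine ⟨P', B, B', y, hPo, hBo, hB'o, fun e' => hy (e' ▸ h2o), hPB, hPB', hyP, hyB,
      fun e' => hy (e' ▸ hz2.1), hP, h1P, h2P, h3P, hB, h2B, hB', h3B', hy, T.eq_of_mul e, ?_, ?_⟩
    · exact (hout y hy hyP hyB).1
    · exact (hout y hy hyP hyB).2

/-- Some non-trivial constituent has degree one. -/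
theorem exists_linear : ∃ k, k ≠ T.o ∧ T.deg k = 1 := by
  obtain ⟨P, B, B', D, hPo, hBo, hB'o, hDo, hPB, hPB', hDP, hDB, hDB', hP, h1P, h2P, h3P, hB, h2B,
    hB', h3B', hD, h3D, h0D, h1D⟩ := T.exists_shape
  refine ⟨D, hDo, ?_⟩
  have hP1 : T.m 1 P ≠ 0 := h1P ▸ hP
  have hP2 : T.m 2 P ≠ 0 := h2P ▸ hP
  have hP3 : T.m 3 P ≠ 0 := h3P ▸ hP
  have i0 := T.form_identities 0 hP (T.o_ne (by decide)) hB hPo hPB hBo.symm
  have i0' := (T.form_identities 0 hP hB (T.o_ne (by decide)) hPB hPo hBo).2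
  have i1 := T.form_identities 1 hP1 (T.o_ne (by decide)) hB' hPo hPB' hB'o.symm
  have i1' := (T.form_identities 1 hP1 hB' (T.o_ne (by decide)) hPB' hPo hB'o).2
  have i2 := T.form_identities 2 hP2 (h2B ▸ hB) hD hPB hDP.symm hDB.symm
  have i2' := (T.form_identities 2 hP2 hD (h2B ▸ hB) hDP.symm hPB hDB).2
  have i3 := T.form_identities 3 hP3 (h3B' ▸ hB') (h3D ▸ hD) hPB' hDP.symm hDB'.symm
  have i3' := (T.form_identities 3 hP3 (h3D ▸ hD) (h3B' ▸ hB') hDP.symm hPB' hDB').2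
  rw [T.d_o (by decide), T.d_eq h1P] at i1
  rw [T.d_o (by decide)] at i0
  rw [T.d_eq h1P] at i1'
  rw [T.d_eq h2P, T.d_eq h2B] at i2
  rw [T.d_eq h2P] at i2'
  rw [T.d_eq h3P, T.d_eq h3B'] at i3
  rw [T.d_eq h3P, T.d_eq h3D] at i3'
  obtain ⟨i0a, i0b⟩ := i0
  obtain ⟨i1a, i1b⟩ := i1
  obtain ⟨i2a, i2b⟩ := i2
  obtain ⟨i3a, i3b⟩ := i3
  have hp := T.d_ne 0 hP
  have hb := T.d_ne 0 hB
  have hb' := T.d_ne 1 hB'
  have hdd := T.d_ne 2 hD
  have key : T.d 2 D = 1 ∨ 81 * T.d 0 P = T.d 2 D * (17 * T.d 0 P - 64) ∨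
      1617 * T.d 0 P = T.d 2 D * (17 * T.d 0 P - 1600) := by
    rcases T.pattern with h | h <;>
      norm_num [form, adjForm, det, h, momentsA, momentsB] at i0a i0b i0' i1a i1b i1' i2a i2b i2' i3a i3b i3'
    · left
      refine endgame_alpha (p := T.d 0 P) (x := T.A P - T.A T.o) (y := T.B P - T.B T.o)
        (a := T.A B - T.A P) (b := T.B B - T.B P) (a' := T.A B' - T.A P) (b' := T.B B' - T.B P)
        (X := T.A D - T.A P) (Y := T.B D - T.B P) hp
        (mul_left_cancel₀ hp (by linear_combination 2 * i0b - 2 * i1b))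
        (mul_left_cancel₀ (mul_ne_zero hb hp) (by linear_combination 2 * i0' - 2 * i2b))
        (mul_left_cancel₀ (mul_ne_zero hb' hp) (by linear_combination 2 * i3b - 2 * i1'))
        (mul_left_cancel₀ (mul_ne_zero hdd hp) (by linear_combination 2 * i3' - 2 * i2'))
        (by linear_combination -2 * i0a) (by linear_combination -2 * i1a)
        (by linear_combination 2 * i2a) (by linear_combination 2 * i3a)
        (by linear_combination 2 * i0b) (by linear_combination 2 * i2')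
    · refine endgame_beta (p := T.d 0 P) (x := T.A P - T.A T.o) (y := T.B P - T.B T.o)
        (a := T.A B - T.A P) (b := T.B B - T.B P) (a' := T.A B' - T.A P) (b' := T.B B' - T.B P)
        (X := T.A D - T.A P) (Y := T.B D - T.B P) hp
        (mul_left_cancel₀ hp (by linear_combination i0b / 8 - 2 * i1b))
        (mul_left_cancel₀ (mul_ne_zero hb hp) (by linear_combination i0' / 8 - 2 * i2b))
        (mul_left_cancel₀ (mul_ne_zero hb' hp) (by linear_combination 2 * i1' - i3b / 2))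
        (mul_left_cancel₀ (mul_ne_zero hdd hp) (by linear_combination 2 * i2' - i3' / 2))
        (by linear_combination -i0a / 8) (by linear_combination -2 * i1a)
        (by linear_combination 2 * i2a) (by linear_combination i3a / 2)
        (by linear_combination i0b / 8) (by linear_combination i3' / 2)
  have hcP := T.cong P
  have hcD := T.cong D
  rw [Fin.sum_univ_four] at hcP hcD
  rw [h1P, h2P, h3P] at hcP
  rw [h0D, h1D, h3D] at hcD
  have hε := T.unit_value 0 P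
  have hη := T.unit_value 2 D
  have hpos := T.deg_pos D
  have hp9 : (T.m 0 P * T.deg P) % 9 = 2 := by
    rcases hε with e | e | e
    · exact absurd e hP
    all_goals (rw [e] at hcP ⊢; omega)
  have hd9 : (T.m 2 D * T.deg D) % 9 = 1 := by
    rcases hη with e | e | e
    · exact absurd e hD
    all_goals (rw [e] at hcD ⊢; omega)
  simp only [d] at key
  norm_cast at key
  have final : T.m 2 D * T.deg D = 1 := by
    revert key hp9 hd9
    generalize T.m 0 P * T.deg P = p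
    generalize T.m 2 D * T.deg D = d'
    intro hp9 hd9 key
    rcases key with e | e | e
    · exact e
    · exfalso
      have h2 : (81 * p) % 9 = (d' * (17 * p - 64)) % 9 := congrArg (· % 9) e
      rw [Int.mul_emod d', Int.sub_emod, Int.mul_emod 17, Int.mul_emod 81, hp9, hd9] at h2
      norm_num at h2
    · exfalso
      have h2 : (1617 * p) % 9 = (d' * (17 * p - 1600)) % 9 := congrArg (· % 9) e
      rw [Int.mul_emod d', Int.sub_emod, Int.mul_emod 17, Int.mul_emod 1617, hp9, hd9] at h2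
      norm_num at h2
  rcases hη with e | e | e
  · exact absurd e hD
  · rwa [e, one_mul] at final
  · rw [e] at final; omega

end Config

end CfsgLib.OrderDegrees.NineD8
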