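import Cfsg.Agent.Lib.OrderDegrees.NineD8.Recognize
import Cfsg.Agent.Lib.OrderDegrees.NineD8.Config
import Cfsg.Agent.Lib.OrderDegrees.InvolutionPairs
import Cfsg.Agent.Lib.CharTheory.PermChar
import Cfsg.Agent.Lib.CharTheory.Linear
import Cfsg.Agent.Lib.CharTheory.Inflation
import Cfsg.Agent.Lib.Coherence.Virtual

/-!
# A self-centralizing elementary Sylow group of order nine with dihedral normalizer quotient
-/

set_option autoImplicit false
set_option linter.style.haveILetI false
set_option linter.unusedSectionVars false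

open scoped ComplexConjugate
open Cfsg CfsgLib.CharTheory CfsgLib.Coherence CfsgLib.Frobenius

namespace CfsgLib.OrderDegrees.NineD8

theorem pow_four_right : ∀ n : N0, (n ^ 4).right = 1 := by decide +kernel

theorem tauFun_right : ∀ n : N0, (tauFun n).right = 1 ↔ n.right = 1 := by decide +kernel

theorem refl_ne : ∀ c : Fin 3, rep c * rep c = 1 := fun c => (rep_sq c).1

/-- The number of fixed points is the value of the permutation character. -/
theorem card_fixedBy_fix6 (n : N0) :
    (Nat.card {p : Fin 2 × ZMod 3 // perm6 n p = p}) = fix6 n := by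
  rw [Nat.card_eq_fintype_card, Fintype.card_subtype, fix6, Finset.sum_boole, Nat.cast_id]
  rfl

/-- The number of fixed points is a character. -/
theorem isCharacter_fix6 : IsCharacter N0 (fun n : N0 => (fix6 n : ℂ)) := by
  letI : MulAction N0 (Fin 2 × ZMod 3) := MulAction.compHom _ perm6
  have h := isCharacter_card_fixedBy (G := N0) (Fin 2 × ZMod 3)
  have e : (fun n : N0 => (Nat.card (MulAction.fixedBy (Fin 2 × ZMod 3) n) : ℂ)) =
      fun n : N0 => (fix6 n : ℂ) := by
    funext n
    rw [← card_fixedBy_fix6 n]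
    rfl
  exact e ▸ h

/-- The four functions are generalized characters. -/
theorem isGeneralizedCharacter_vfun (i : Fin 4) :
    IsGeneralizedCharacter N0 (fun n : N0 => (vfun i n : ℂ)) := by
  have h0 : IsGeneralizedCharacter N0 (fun n : N0 => (vfun 0 n : ℂ)) := by
    refine ⟨fun n => (fix6 (proj n) : ℂ), fun n => (fix6 n : ℂ),
      isCharacter_comp isCharacter_fix6 proj, isCharacter_fix6, ?_⟩
    funext n
    simp [vfun]
  have hs : IsGeneralizedCharacter N0 (fun n : N0 => (sgn n : ℂ)) := by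
    have h := isIrrCharacter_linear ((Units.map (Int.castRingHom ℂ).toMonoidHom).comp sgn.toHomUnits)
    exact IsIrrCharacter.isGeneralizedCharacter h
  have h3 : IsGeneralizedCharacter N0 (fun n : N0 => (vfun 3 n : ℂ)) := by
    have := isGeneralizedCharacter_mul hs h0
    have e : (fun n : N0 => (vfun 3 n : ℂ)) =
        (fun n : N0 => (sgn n : ℂ)) * (fun n : N0 => (vfun 0 n : ℂ)) := by
      funext n; simp [vfun]
    rw [e]; exact this
  fin_cases i
  · exact h0
  · exact isGeneralizedCharacter_comp h0 tau.toMonoidHom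
  · exact isGeneralizedCharacter_comp h3 tau.toMonoidHom
  · exact h3

variable {G : Type*} [Group G] [Fintype G]

/-- What the argument needs from the group. -/
structure Setting (G : Type*) [Group G] where
  /-- the Sylow subgroup -/
  M : Sylow 3 G
  /-- its normalizer -/
  N : Subgroup G
  /-- the identification with the model -/
  e : N0 →* G
  inj : Function.Injective e
  range : e.range = N
  mem : ∀ n : N0, e n ∈ (M : Subgroup G) ↔ n.right = 1
  card_M : Nat.card ↥(M : Subgroup G) = 9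
  cent_M : Subgroup.centralizer ((M : Subgroup G) : Set G) = (M : Subgroup G)
  normalizer : N = Subgroup.normalizer ((M : Subgroup G) : Set G)
  cent : ∀ g ∈ (M : Subgroup G), g ≠ 1 → Subgroup.centralizer ({g} : Set G) ≤ N

namespace Setting

variable (S : Setting G)

/-- The same group with the roles of axes and diagonals exchanged. -/
noncomputable def swap : Setting G :=
  { S with
    e := S.e.comp tau.toMonoidHom
    inj := S.inj.comp tau.injective
    range := by
      rw [MonoidHom.range_comp, MonoidHom.range_eq_top.2 (MulEquiv.surjective _),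
        ← MonoidHom.range_eq_map, S.range]
    mem := fun n => (S.mem _).trans (tauFun_right n) }

theorem swap_apply (n : N0) : S.swap.e n = S.e (tauFun n) := rfl

/-- A conjugation of a non-trivial element of `M` into `M` happens inside `N`. -/
theorem mem_of_conj {x g : G} (hg : g ∈ (S.M : Subgroup G)) (hg1 : g ≠ 1)
    (hx : x * g * x⁻¹ ∈ (S.M : Subgroup G)) : x ∈ S.N := by
  set h := x * g * x⁻¹ with hh
  have hh1 : h ≠ 1 := fun e => hg1 (conj_eq_one_iff.1 e)
  let c : G →* G := (MulAut.conj x).toMonoidHom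
  have hle : (S.M : Subgroup G).map c ≤ S.N := by
    refine le_trans ?_ (S.cent h hx hh1)
    rintro _ ⟨m, hm, rfl⟩
    rw [Subgroup.mem_centralizer_singleton_iff]
    have hmg : m * g = g * m := by
      rw [SetLike.mem_coe, ← S.cent_M, Subgroup.mem_centralizer_iff] at hm
      exact (hm g hg).symm
    show x * m * x⁻¹ * (x * g * x⁻¹) = x * g * x⁻¹ * (x * m * x⁻¹)
    rw [conj_mul, conj_mul, hmg]
  have hp : IsPGroup 3 ((S.M : Subgroup G).map c) := S.M.2.map c
  have hsup : IsPGroup 3 ((S.M : Subgroup G).map c ⊔ (S.M : Subgroup G) : Subgroup G) :=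
    IsPGroup.to_sup_of_normal_right' hp S.M.2 (hle.trans S.normalizer.le)
  have heq := S.M.3 hsup le_sup_right
  have hsub : (S.M : Subgroup G).map c ≤ (S.M : Subgroup G) := le_sup_left.trans heq.le
  have hcard : Nat.card ((S.M : Subgroup G).map c) = Nat.card (S.M : Subgroup G) :=
    (Nat.card_congr ((S.M : Subgroup G).equivMapOfInjective c (MulAut.conj x).injective).toEquiv).symm
  have hmap := Subgroup.eq_of_le_of_card_ge hsub hcard.ge
  rw [S.normalizer]
  refine Subgroup.mem_normalizer_iff.2 fun m => ⟨fun hm => ?_, fun hm => ?_⟩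
  · exact hmap.le ⟨m, hm, rfl⟩
  · obtain ⟨w, hw, hwm⟩ := hmap.ge hm
    change x * w * x⁻¹ = x * m * x⁻¹ at hwm
    rwa [← mul_left_cancel (mul_right_cancel hwm)]

theorem e_mem (n : N0) : S.e n ∈ S.N := S.range ▸ ⟨n, rfl⟩

/-- The identification. -/
noncomputable def equiv : N0 ≃* S.N :=
  (MonoidHom.ofInjective S.inj).trans (MulEquiv.subgroupCongr S.range)

theorem equiv_coe (n : N0) : (S.equiv n : G) = S.e n := rfl

/-- The virtual characters of the normalizer. -/
noncomputable def v (i : Fin 4) (h : S.N) : ℂ := (vfun i (S.equiv.symm h) : ℂ)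

theorem v_equiv (i : Fin 4) (n : N0) : S.v i (S.equiv n) = (vfun i n : ℂ) := by simp [v]

theorem v_gen (i : Fin 4) : IsGeneralizedCharacter S.N (S.v i) :=
  isGeneralizedCharacter_comp (isGeneralizedCharacter_vfun i) S.equiv.symm.toMonoidHom

/-- The support of the virtual characters. -/
def supp : Set G := {g | ∃ n : N0, n ^ 4 ≠ 1 ∧ S.e n = g}

theorem v_ne_zero {i : Fin 4} {h : S.N} (hv : S.v i h ≠ 0) : (h : G) ∈ S.supp := by
  obtain ⟨n, rfl⟩ := S.equiv.surjective h
  rw [v_equiv] at hv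
  exact ⟨n, fun h4 => hv (by rw [vfun_eq_zero i n h4, Int.cast_zero]), rfl⟩

theorem v_one (i : Fin 4) : S.v i 1 = 0 := by
  rw [← map_one S.equiv, v_equiv, vfun_eq_zero i 1 (one_pow 4), Int.cast_zero]

theorem supp_pow {g : G} (hg : g ∈ S.supp) : g ^ 4 ∈ (S.M : Subgroup G) ∧ g ^ 4 ≠ 1 := by
  obtain ⟨n, hn, rfl⟩ := hg
  rw [← map_pow]
  exact ⟨(S.mem _).2 (pow_four_right n), fun e => hn (S.inj (e.trans (map_one _).symm))⟩

theorem ti (x : G) (hx : x ∉ S.N) (s : G) (hs : s ∈ S.supp) (hsx : x⁻¹ * s * x ∈ S.supp) :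
    s = 1 := by
  exfalso
  obtain ⟨h1, h2⟩ := S.supp_pow hs
  obtain ⟨h3, -⟩ := S.supp_pow hsx
  refine hx ?_
  have := S.mem_of_conj (x := x⁻¹) h1 h2 (by
    have e : (x⁻¹ * s * x) ^ 4 = x⁻¹ * s ^ 4 * x⁻¹⁻¹ := by
      rw [← conj_pow, inv_inv]
    rwa [e] at h3)
  simpa using S.N.inv_mem this

theorem pairs_mem (i : Fin 4) (x y : G) (hx : x * x = 1) (hy : y * y = 1) (h : S.N)
    (hv : S.v i h ≠ 0) (he : x * y = h) : x ∈ S.N := by
  obtain ⟨h1, h2⟩ := S.supp_pow (S.v_ne_zero hv)
  refine S.mem_of_conj h1 h2 ?_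
  have hxi : x⁻¹ = x := inv_eq_self hx
  have hyi : y⁻¹ = y := inv_eq_self hy
  have e : x * (x * y) ^ 4 * x⁻¹ = ((x * y) ^ 4)⁻¹ := by
    rw [← conj_pow, ← inv_pow, mul_inv_rev, hxi, hyi, ← mul_assoc x x y, hx, one_mul]
  rw [← he, e, he]
  exact inv_mem h1

variable [Fintype S.N]

theorem inner_v (i j : Fin 4) : classInner (S.v i) (S.v j) = (gram i j : ℂ) := by
  have hc : Nat.card S.N = 72 := by
    rw [← Nat.card_congr S.equiv.toEquiv, SemidirectProduct.card, DihedralGroup.nat_card]; simp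
  rw [classInner, ← S.equiv.toEquiv.sum_comp]
  simp only [MulEquiv.toEquiv_eq_coe, EquivLike.coe_coe, v_equiv, map_intCast, ← Int.cast_mul,
    ← Int.cast_sum, vfun_inner, hc]
  push_cast
  ring

/-- The lifts. -/
noncomputable def V (i : Fin 4) : G → ℂ := indFun S.N (S.v i)

theorem V_gen (i : Fin 4) : IsGeneralizedCharacter G (S.V i) :=
  isGeneralizedCharacter_indFun _ _ (S.v_gen i)

theorem v_supp (i : Fin 4) (h : S.N) (hh : (h : G) ∉ S.supp) : S.v i h = 0 := by
  by_contra hv
  exact hh (S.v_ne_zero hv)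

theorem inner_V (i j : Fin 4) : classInner (S.V i) (S.V j) = (gram i j : ℂ) := by
  rw [V, V, classInner_indFun_indFun_of_ti S.N S.supp S.ti _ _
    (IsGeneralizedCharacter.isClassFunction (S.v_gen j)) (S.v_supp i) (S.v_supp j) (S.v_one j),
    inner_v]

theorem inner_V_one (i : Fin 4) :
    classInner (S.V i) (trivIrr G : G → ℂ) = if i.val < 2 then 1 else 0 := by
  have hc : Nat.card S.N = 72 := by
    rw [← Nat.card_congr S.equiv.toEquiv, SemidirectProduct.card, DihedralGroup.nat_card]; simp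
  rw [V, classInner_indFun _ _ _ (IsIrrCharacter.isClassFunction (trivIrr G).2), classInner,
    ← S.equiv.toEquiv.sum_comp]
  simp only [MulEquiv.toEquiv_eq_coe, EquivLike.coe_coe, v_equiv, trivIrr_apply, map_one, mul_one,
    ← Int.cast_sum, vfun_sum, hc]
  split_ifs <;> norm_num

theorem V_one (i : Fin 4) : S.V i 1 = 0 := by rw [V, indFun_one, v_one, mul_zero]

theorem V_involution (i : Fin 4) {a : G} (ha : a * a = 1) : S.V i a = 0 := by
  rw [V, indFun, Finset.sum_eq_zero, mul_zero]
  intro x _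
  by_contra hne
  have hm : x⁻¹ * a * x ∈ S.N := by
    by_contra hm; exact hne (extendByZero_of_not_mem S.N _ hm)
  rw [extendByZero_of_mem S.N _ hm] at hne
  obtain ⟨-, h2⟩ := S.supp_pow (S.v_ne_zero hne)
  refine h2 ?_
  show (x⁻¹ * a * x) ^ 4 = 1
  rw [show (4 : ℕ) = 2 * 2 from rfl, pow_mul, pow_two (x⁻¹ * a * x),
    show x⁻¹ * a * x * (x⁻¹ * a * x) = x⁻¹ * (a * a) * x by group, ha]
  simp

variable [Fintype (IrrCharacter G)]

/-- The coefficients of the lifts. -/
noncomputable def coeff (i : Fin 4) (χ : IrrCharacter G) : ℤ :=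
  (exists_classInner_eq_int (S.V_gen i) (IsIrrCharacter.isGeneralizedCharacter χ.2)).choose

theorem coeff_spec (i : Fin 4) (χ : IrrCharacter G) :
    classInner (S.V i) (χ : G → ℂ) = (S.coeff i χ : ℂ) :=
  (exists_classInner_eq_int (S.V_gen i) (IsIrrCharacter.isGeneralizedCharacter χ.2)).choose_spec

theorem V_eq (i : Fin 4) : S.V i = ∑ χ : IrrCharacter G, (S.coeff i χ : ℂ) • (χ : G → ℂ) := by
  conv_lhs => rw [eq_sum_classInner (IsGeneralizedCharacter.isClassFunction (S.V_gen i))]
  simp only [coeff_spec]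

theorem sum_coeff (i : Fin 4) (g : G) :
    ∑ χ : IrrCharacter G, (S.coeff i χ : ℂ) * (χ : G → ℂ) g = S.V i g := by
  conv_rhs => rw [S.V_eq i]
  simp [Finset.sum_apply]

theorem gram_coeff (i j : Fin 4) : ∑ χ, S.coeff i χ * S.coeff j χ = gram i j := by
  have h := S.inner_V i j
  rw [S.V_eq i, S.V_eq j, classInner_generalized_sum] at h
  exact_mod_cast h

/-- The congruence modulo nine. -/
theorem coeff_cong (χ : IrrCharacter G) :
    ∃ k : ℕ, (χ : G → ℂ) 1 + 4 * ∑ i, (S.coeff i χ : ℂ) = 9 * k := by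
  classical
  have hc : Nat.card S.N = 72 := by
    rw [← Nat.card_congr S.equiv.toEquiv, SemidirectProduct.card, DihedralGroup.nat_card]; simp
  obtain ⟨k, hk⟩ := BrauerCharacters.exists_nat_sum_subgroup χ (S.M : Subgroup G)
  refine ⟨k, ?_⟩
  have hk' : ∑ u : G, (if u ∈ (S.M : Subgroup G) then conj ((χ : G → ℂ) u) else 0) = 9 * (k : ℂ) := by
    have := congrArg conj hk
    rw [map_sum, map_mul, map_natCast, map_natCast, S.card_M] at this
    rw [Nat.cast_ofNat] at this
    rw [← this]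
    exact Finset.sum_congr rfl fun u _ => by split_ifs <;> simp
  have hM : ∑ u : G, (if u ∈ (S.M : Subgroup G) then conj ((χ : G → ℂ) u) else 0) =
      ∑ n : N0, if n.right = 1 then conj ((χ : G → ℂ) (S.e n)) else 0 := by
    rw [← Finset.sum_subset (Finset.subset_univ (Finset.univ.image S.e)) fun u _ hu => if_neg fun hm => by
      have : u ∈ S.e.range := S.range ▸ S.normalizer ▸ Subgroup.le_normalizer hm
      obtain ⟨n, rfl⟩ := this
      exact hu (Finset.mem_image.2 ⟨n, Finset.mem_univ _, rfl⟩)]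
    rw [Finset.sum_image S.inj.injOn]
    exact Finset.sum_congr rfl fun n _ => if_congr (S.mem n) rfl rfl
  have h4 : 4 * ∑ i, (S.coeff i χ : ℂ) =
      ∑ n : N0, if n.right = 1 ∧ n.left ≠ 1 then conj ((χ : G → ℂ) (S.e n)) else 0 := by
    have h1 : ∀ i, (S.coeff i χ : ℂ) =
        (72 : ℂ)⁻¹ * ∑ n : N0, (vfun i n : ℂ) * conj ((χ : G → ℂ) (S.e n)) := fun i => by
      rw [← coeff_spec, V, classInner_indFun _ _ _ (IsIrrCharacter.isClassFunction χ.2), classInner,
        ← S.equiv.toEquiv.sum_comp, hc]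
      simp only [MulEquiv.toEquiv_eq_coe, EquivLike.coe_coe, v_equiv, equiv_coe, Nat.cast_ofNat]
    simp only [h1, ← Finset.mul_sum]
    rw [Finset.sum_comm]
    simp only [← Finset.sum_mul, ← Int.cast_sum, vfun_translation]
    rw [Finset.mul_sum, Finset.mul_sum]
    refine Finset.sum_congr rfl fun n _ => ?_
    split_ifs <;> · push_cast; ring
  rw [← hk', hM, h4, ← Finset.add_sum_erase _ _ (Finset.mem_univ (1 : N0)),
    ← Finset.add_sum_erase (f := fun n : N0 => if n.right = 1 then conj ((χ : G → ℂ) (S.e n)) else 0)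
      _ (Finset.mem_univ (1 : N0))]
  simp only [SemidirectProduct.one_right, SemidirectProduct.one_left, ne_eq, not_true, and_false,
    if_false, if_true, zero_add, map_one]
  rw [BrauerCharacters.conj_apply, inv_one, add_right_inj]
  refine Finset.sum_congr rfl fun n hn => if_congr ?_ rfl rfl
  exact ⟨fun h => h.1, fun h => ⟨h, fun hl => (Finset.mem_erase.1 hn).1 (SemidirectProduct.ext hl h)⟩⟩

/-- Pairs of involutions, in the model. -/
theorem sum_pairs (i : Fin 4) (a b : G) (ha : a * a = 1) (hb : b * b = 1) (ha1 : a ≠ 1) (hb1 : b ≠ 1)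
    (k l : Fin 3 → Bool) (hk : ∀ c, IsConj a (S.e (rep c)) ↔ k c = true)
    (hl : ∀ c, IsConj b (S.e (rep c)) ↔ l c = true) :
    ∑ χ : IrrCharacter G, (S.coeff i χ : ℂ) * ((χ : G → ℂ) a * (χ : G → ℂ) b / (χ : G → ℂ) 1) =
      (Nat.card (Subgroup.centralizer ({a} : Set G)) : ℂ) *
          (Nat.card (Subgroup.centralizer ({b} : Set G)) : ℂ) / ((Nat.card G : ℂ) * 72) *
        (pairSum i k l : ℂ) := by
  classical
  have hc : Nat.card S.N = 72 := by
    rw [← Nat.card_congr S.equiv.toEquiv, SemidirectProduct.card, DihedralGroup.nat_card]; simp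
  have h := sum_indFun_involutions S.N a b ha hb (S.v i) (S.pairs_mem i)
  simp only [← V.eq_def, coeff_spec] at h
  rw [h, hc, Nat.cast_ofNat]
  congr 1
  have key : ∀ (a : G), a * a = 1 → a ≠ 1 → ∀ (k : Fin 3 → Bool),
      (∀ c, IsConj a (S.e (rep c)) ↔ k c = true) → ∀ x : N0,
      IsConj a (S.e x) ↔ (x * x = 1 ∧ x ≠ 1) ∧ k (cls x) = true := by
    intro a ha ha1 k hk x
    constructor
    · intro hax
      have hx : x * x = 1 ∧ x ≠ 1 := by
        refine ⟨S.inj ?_, ?_⟩
        · rw [map_mul, map_one]; exact mul_self_eq_one_of_isConj ha hax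
        · rintro rfl
          rw [map_one] at hax
          exact ha1 (isConj_one_left.1 hax)
      refine ⟨hx, (hk _).1 ?_⟩
      obtain ⟨c, hc⟩ := isConj_rep x hx.1 hx.2
      refine hax.trans (isConj_iff.2 ⟨(S.e c)⁻¹, ?_⟩)
      conv_lhs => rw [← hc]
      simp [map_mul, map_inv, mul_assoc]
    · rintro ⟨hx, hkx⟩
      obtain ⟨c, hc⟩ := isConj_rep x hx.1 hx.2
      exact ((hk _).2 hkx).trans (isConj_iff.2 ⟨S.e c, by rw [← map_inv, ← map_mul, ← map_mul, hc]⟩)
  rw [pairSum, ← S.equiv.toEquiv.sum_comp]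
  push_cast
  rw [Finset.sum_filter]
  refine Finset.sum_congr rfl fun x _ => ?_
  rw [← S.equiv.toEquiv.sum_comp]
  simp only [MulEquiv.toEquiv_eq_coe, EquivLike.coe_coe, equiv_coe, ← map_mul, v_equiv,
    key a ha ha1 k hk, key b hb hb1 l hl]
  split_ifs with hx
  · rw [Finset.sum_filter]
    refine Finset.sum_congr rfl fun y _ => ?_
    by_cases hy : y * y = 1 ∧ y ≠ 1 <;> cases k (cls x) <;> cases l (cls y) <;> simp [hx, hy]
  · simp [hx]

/-- The configuration built from two involution classes. -/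
theorem false_of_classes [IsSimpleGroup G] (a b : G) (ha : a * a = 1) (hb : b * b = 1) (ha1 : a ≠ 1)
    (hb1 : b ≠ 1) (k l : Fin 3 → Bool) (hk : ∀ c, IsConj a (S.e (rep c)) ↔ k c = true)
    (hl : ∀ c, IsConj b (S.e (rep c)) ↔ l c = true) (MM : Fin 4 → ℂ × ℂ × ℂ)
    (hMM : MM = momentsA ∨ MM = momentsB)
    (hsum : ∀ i, ((pairSum i k k : ℂ), (pairSum i k l : ℂ), (pairSum i l l : ℂ)) =
      (72 * (MM i).1, 72 * (MM i).2.1, 72 * (MM i).2.2)) : False := by
  classical
  obtain ⟨s, hs⟩ := IsAlgClosed.exists_eq_mul_self (Nat.card G : ℂ)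
  have hG : (Nat.card G : ℂ) ≠ 0 := by simp
  have hca : (Nat.card (Subgroup.centralizer ({a} : Set G)) : ℂ) ≠ 0 := by simp
  have hcb : (Nat.card (Subgroup.centralizer ({b} : Set G)) : ℂ) ≠ 0 := by simp
  set ca := (Nat.card (Subgroup.centralizer ({a} : Set G)) : ℂ) with hcadef
  set cb := (Nat.card (Subgroup.centralizer ({b} : Set G)) : ℂ) with hcbdef
  have hd : ∀ χ : IrrCharacter G, ((charDegree (χ : G → ℂ) : ℤ) : ℂ) = (χ : G → ℂ) 1 := fun χ => by
    rw [Int.cast_natCast]; exact (BrauerCharacters.charDegree_spec χ).1.symm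
  have h10 : ∀ χ : IrrCharacter G, (χ : G → ℂ) 1 ≠ 0 := fun χ => apply_one_ne_zero_of_isIrr χ.2
  have first : ∀ (u : G) (t : ℂ), u * u = 1 → ∀ i,
      ∑ χ : IrrCharacter G, ((S.coeff i χ : ℂ) * ((charDegree (χ : G → ℂ) : ℤ) : ℂ)) *
        (t * (χ : G → ℂ) u / (χ : G → ℂ) 1) = 0 := by
    intro u t hu i
    rw [Finset.sum_congr rfl fun χ _ => show ((S.coeff i χ : ℂ) * ((charDegree (χ : G → ℂ) : ℤ) : ℂ)) *
        (t * (χ : G → ℂ) u / (χ : G → ℂ) 1) = t * ((S.coeff i χ : ℂ) * (χ : G → ℂ) u) by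
      rw [hd]; field_simp [h10 χ], ← Finset.mul_sum, sum_coeff, V_involution _ i hu, mul_zero]
  have second : ∀ (u w : G) (hu : u * u = 1) (hw : w * w = 1) (hu1 : u ≠ 1) (hw1 : w ≠ 1)
      (k l : Fin 3 → Bool) (hk : ∀ c, IsConj u (S.e (rep c)) ↔ k c = true)
      (hl : ∀ c, IsConj w (S.e (rep c)) ↔ l c = true) (i : Fin 4),
      ∑ χ : IrrCharacter G, ((S.coeff i χ : ℂ) * ((charDegree (χ : G → ℂ) : ℤ) : ℂ)) *
        (s / (Nat.card (Subgroup.centralizer ({u} : Set G)) : ℂ) * (χ : G → ℂ) u / (χ : G → ℂ) 1) *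
        (s / (Nat.card (Subgroup.centralizer ({w} : Set G)) : ℂ) * (χ : G → ℂ) w / (χ : G → ℂ) 1) =
        (pairSum i k l : ℂ) / 72 := by
    intro u w hu hw hu1 hw1 k l hk hl i
    set cu := (Nat.card (Subgroup.centralizer ({u} : Set G)) : ℂ) with hcu
    set cw := (Nat.card (Subgroup.centralizer ({w} : Set G)) : ℂ) with hcw
    have h1 : cu ≠ 0 := by simp [hcu]
    have h2 : cw ≠ 0 := by simp [hcw]
    rw [Finset.sum_congr rfl fun χ _ => show ((S.coeff i χ : ℂ) * ((charDegree (χ : G → ℂ) : ℤ) : ℂ)) *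
        (s / cu * (χ : G → ℂ) u / (χ : G → ℂ) 1) * (s / cw * (χ : G → ℂ) w / (χ : G → ℂ) 1) =
        (s * s / (cu * cw)) *
          ((S.coeff i χ : ℂ) * ((χ : G → ℂ) u * (χ : G → ℂ) w / (χ : G → ℂ) 1)) by
      rw [hd]; field_simp [h10 χ], ← Finset.mul_sum, S.sum_pairs i u w hu hw hu1 hw1 k l hk hl,
      ← hs, ← hcu, ← hcw]
    field_simp
  let T : Config (IrrCharacter G) :=
    { m := S.coeff
      deg := fun χ => (charDegree (χ : G → ℂ) : ℤ)
      o := trivIrr G
      A := fun χ => s / ca * (χ : G → ℂ) a / (χ : G → ℂ) 1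
      B := fun χ => s / cb * (χ : G → ℂ) b / (χ : G → ℂ) 1
      M := MM
      deg_pos := fun χ => by exact_mod_cast (BrauerCharacters.charDegree_spec χ).2.1
      deg_o := by
        have := hd (trivIrr G)
        rw [trivIrr_apply] at this
        exact_mod_cast this
      gram := fun i j => S.gram_coeff i j
      m_o := fun i => by
        have := (S.coeff_spec i (trivIrr G)).symm.trans (S.inner_V_one i)
        split_ifs at this ⊢ <;> exact_mod_cast this
      deg_sum := fun i => by
        have h := (S.sum_coeff i 1).trans (S.V_one i)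
        simp only [← hd] at h
        exact_mod_cast h
      cong := fun χ => by
        obtain ⟨n, hn⟩ := S.coeff_cong χ
        refine ⟨n, ?_⟩
        rw [← hd χ] at hn
        exact_mod_cast hn
      A_sum := first a (s / ca) ha
      B_sum := first b (s / cb) hb
      AA_sum := fun i => by
        have h := second a a ha ha ha1 ha1 k k hk hk i
        have h' := congrArg Prod.fst (hsum i)
        simp only at h'
        rw [h', mul_div_cancel_left₀ _ (by norm_num)] at h
        simpa only [pow_two, ← mul_assoc, hcadef] using h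
      AB_sum := fun i => by
        have h := second a b ha hb ha1 hb1 k l hk hl i
        have h' := congrArg (fun p => p.2.1) (hsum i)
        simp only at h'
        rw [h', mul_div_cancel_left₀ _ (by norm_num)] at h
        exact h
      BB_sum := fun i => by
        have h := second b b hb hb hb1 hb1 l l hl hl i
        have h' := congrArg (fun p => p.2.2) (hsum i)
        simp only at h'
        rw [h', mul_div_cancel_left₀ _ (by norm_num)] at h
        simpa only [pow_two, ← mul_assoc, hcbdef] using h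
      pattern := hMM }
  obtain ⟨χ, hχo, hχ1⟩ := T.exists_linear
  have h1 : (χ : G → ℂ) 1 = 1 := by
    rw [← hd χ, show ((charDegree (χ : G → ℂ) : ℤ)) = 1 from hχ1, Int.cast_one]
  obtain ⟨μ, hμ⟩ := exists_hom_of_degree_one χ.2 h1
  rcases (MonoidHom.normal_ker μ).eq_bot_or_eq_top with h | h
  · have hinj := (MonoidHom.ker_eq_bot_iff μ).1 h
    have htop : (⊤ : Subgroup G) ≤ (S.M : Subgroup G) := by
      rw [← S.cent_M]
      intro x _
      rw [Subgroup.mem_centralizer_iff]
      exact fun m _ => hinj (by rw [map_mul, map_mul, mul_comm])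
    have hN := Subgroup.card_dvd_of_le ((le_top : S.N ≤ ⊤).trans htop)
    rw [S.card_M, ← S.range, ← Nat.card_congr (MonoidHom.ofInjective S.inj).toEquiv,
      SemidirectProduct.card, DihedralGroup.nat_card] at hN
    norm_num at hN
  · refine hχo (Subtype.ext ?_)
    rw [hμ]
    funext g
    have : g ∈ μ.ker := h ▸ Subgroup.mem_top g
    rw [MonoidHom.mem_ker] at this
    show (μ g : ℂ) = (trivIrr G : G → ℂ) g
    rw [this, trivIrr_apply, Units.val_one]

omit [Fintype S.N] [Fintype (IrrCharacter G)] in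
/-- The two reflections are not conjugate. -/
theorem not_isConj_refl : ¬ IsConj (S.e refl1) (S.e refl2) := by
  haveI := Fact.mk Nat.prime_three
  intro h
  obtain ⟨c, hc⟩ := isConj_iff.1 h
  set C := Subgroup.centralizer ({S.e refl2} : Set G)
  set u := c * S.e axis * c⁻¹ with hu
  set w := S.e diag with hw
  have hax := axis_props
  have hwM : w ∈ (S.M : Subgroup G) := (S.mem _).2 hax.2.2.2
  have haM : S.e axis ∈ (S.M : Subgroup G) := (S.mem _).2 hax.2.2.1
  have huC : u ∈ C := by
    rw [Subgroup.mem_centralizer_singleton_iff, hu, ← hc, conj_mul, conj_mul, ← map_mul, ← map_mul,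
      axis_comm.1]
  have hwC : w ∈ C := by
    rw [Subgroup.mem_centralizer_singleton_iff, hw, ← map_mul, ← map_mul, axis_comm.2]
  have hord : ∀ m ∈ (S.M : Subgroup G), m ≠ 1 → orderOf m ∣ 9 ∧ orderOf m ≠ 1 := fun m hm hm1 =>
    ⟨by rw [← Subgroup.orderOf_mk m hm]; exact S.card_M ▸ orderOf_dvd_natCard (⟨m, hm⟩ : (S.M : Subgroup G)),
      fun e => hm1 (orderOf_eq_one_iff.1 e)⟩
  have h9 : ¬ 9 ∣ Nat.card C := by
    intro hd
    obtain ⟨P⟩ := (inferInstance : Nonempty (Sylow 3 C))
    have hP : 9 ∣ Nat.card (P : Subgroup C) := by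
      have := Sylow.pow_dvd_card_of_pow_dvd_card P (n := 2) (by norm_num; exact hd)
      simpa using this
    have hmap : IsPGroup 3 ((P : Subgroup C).map C.subtype) := P.2.map _
    obtain ⟨Q, hQ⟩ := hmap.exists_le_sylow
    obtain ⟨d, hd'⟩ := MulAction.exists_smul_eq G S.M Q
    have hQc : Nat.card (Q : Subgroup G) = 9 := by
      rw [Q.card_eq_multiplicity, ← S.M.card_eq_multiplicity, S.card_M]
    have hPQ : (P : Subgroup C).map C.subtype = (Q : Subgroup G) := by
      refine Subgroup.eq_of_le_of_card_ge hQ ?_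
      rw [hQc, Nat.card_congr ((P : Subgroup C).equivMapOfInjective _ C.subtype_injective).toEquiv.symm]
      exact Nat.le_of_dvd Nat.card_pos hP
    have hfix : d⁻¹ * S.e refl2 * d ∈ (S.M : Subgroup G) := by
      rw [← S.cent_M, Subgroup.mem_centralizer_iff]
      intro m hm
      have : d * m * d⁻¹ ∈ (Q : Subgroup G) := by
        rw [← hd']; exact ⟨m, hm, rfl⟩
      rw [← hPQ] at this
      obtain ⟨⟨z, hz⟩, -, hze⟩ := this
      change z = d * m * d⁻¹ at hze
      rw [Subgroup.mem_centralizer_singleton_iff, hze] at hz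
      calc m * (d⁻¹ * S.e refl2 * d) = d⁻¹ * ((d * m * d⁻¹) * S.e refl2) * d := by group
        _ = d⁻¹ * (S.e refl2 * (d * m * d⁻¹)) * d := by rw [hz]
        _ = d⁻¹ * S.e refl2 * d * m := by group
    have h2 : orderOf (d⁻¹ * S.e refl2 * d) ∣ 2 := by
      refine orderOf_dvd_of_pow_eq_one ?_
      rw [pow_two, show d⁻¹ * S.e refl2 * d * (d⁻¹ * S.e refl2 * d) =
        d⁻¹ * (S.e refl2 * S.e refl2) * d by group, ← map_mul, show refl2 * refl2 = 1 from (rep_sq 2).1, map_one]
      group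
    by_cases hne : d⁻¹ * S.e refl2 * d = 1
    · have : S.e refl2 = 1 := by
        calc S.e refl2 = d * (d⁻¹ * S.e refl2 * d) * d⁻¹ := by group
          _ = 1 := by rw [hne]; group
      exact (rep_sq 2).2 (S.inj (this.trans (map_one _).symm))
    · obtain ⟨ha, hb⟩ := hord _ hfix hne
      exact hb (Nat.eq_one_of_dvd_coprimes (by norm_num : Nat.Coprime 2 9) h2 ha)
  obtain ⟨P⟩ := (inferInstance : Nonempty (Sylow 3 C))
  have hw1 : w ≠ 1 := fun e => hax.2.1 (S.inj (e.trans (map_one _).symm))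
  have ha1 : S.e axis ≠ 1 := fun e => hax.1 (S.inj (e.trans (map_one _).symm))
  have hPc : Nat.card (P : Subgroup C) ≤ 3 := by
    rw [P.card_eq_multiplicity]
    calc 3 ^ (Nat.card C).factorization 3 ≤ 3 ^ 1 := Nat.pow_le_pow_right (by norm_num) (by
          by_contra hlt
          exact h9 ((Nat.Prime.pow_dvd_iff_le_factorization (k := 2) Nat.prime_three
            Nat.card_pos.ne').2 (by omega)))
      _ = 3 := by norm_num
  have hsyl : ∀ z : C, (z : G) ≠ 1 → orderOf (z : G) ∣ 9 →
      ∃ Q : Sylow 3 C, (Q : Subgroup C) = Subgroup.zpowers z := by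
    intro z hz hz9
    have hp : IsPGroup 3 (Subgroup.zpowers z) := by
      obtain ⟨j, -, hj⟩ := (Nat.dvd_prime_pow Nat.prime_three).1
        (show orderOf (z : G) ∣ 3 ^ 2 by simpa using hz9)
      exact IsPGroup.of_card (n := j) (by rw [Nat.card_zpowers, ← hj, Subgroup.orderOf_coe])
    obtain ⟨Q, hQ⟩ := hp.exists_le_sylow
    refine ⟨Q, (Subgroup.eq_of_le_of_card_ge hQ ?_).symm⟩
    have h1 : Nat.card (Q : Subgroup C) ≤ 3 := by
      rw [Q.card_eq_multiplicity, ← P.card_eq_multiplicity]; exact hPc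
    refine h1.trans ?_
    rw [Nat.card_zpowers, ← Subgroup.orderOf_coe]
    obtain ⟨j, -, hj⟩ := (Nat.dvd_prime_pow Nat.prime_three).1
      (show orderOf (z : G) ∣ 3 ^ 2 by simpa using hz9)
    rcases j with _ | j
    · exact absurd (orderOf_eq_one_iff.1 (by rw [hj, pow_zero])) hz
    · rw [hj, pow_succ]
      exact Nat.le_mul_of_pos_left 3 (by positivity)
  obtain ⟨Qu, hQu⟩ := hsyl ⟨u, huC⟩ (fun e => ha1 (conj_eq_one_iff.1 e)) (by
    rw [show ((⟨u, huC⟩ : C) : G) = MulAut.conj c (S.e axis) from rfl, MulEquiv.orderOf_eq]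
    exact (hord _ haM ha1).1)
  obtain ⟨Qw, hQw⟩ := hsyl ⟨w, hwC⟩ hw1 (hord _ hwM hw1).1
  obtain ⟨d, hd⟩ := MulAction.exists_smul_eq C Qu Qw
  have hmem : (d : G) * u * (d : G)⁻¹ ∈ Subgroup.zpowers w := by
    have : d * ⟨u, huC⟩ * d⁻¹ ∈ (Qw : Subgroup C) := by
      rw [← hd]; exact ⟨⟨u, huC⟩, hQu ▸ Subgroup.mem_zpowers _, rfl⟩
    rw [hQw] at this
    obtain ⟨j, hj⟩ := Subgroup.mem_zpowers_iff.1 this
    exact Subgroup.mem_zpowers_iff.2 ⟨j, by simpa using congrArg Subtype.val hj⟩
  rw [hu, show (d : G) * (c * S.e axis * c⁻¹) * (d : G)⁻¹ =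
    ((d : G) * c) * S.e axis * ((d : G) * c)⁻¹ by group] at hmem
  have hx : (d : G) * c ∈ S.N :=
    S.mem_of_conj haM ha1 ((Subgroup.zpowers_le.2 hwM) hmem)
  rw [← S.range] at hx
  obtain ⟨n, hn⟩ := hx
  rw [← hn, hw, ← map_inv, ← map_mul, ← map_mul, ← MonoidHom.map_zpowers] at hmem
  obtain ⟨m, hm, hme⟩ := hmem
  obtain rfl := S.inj hme
  obtain ⟨j, hj⟩ := Subgroup.mem_zpowers_iff.1 hm
  obtain ⟨hne1, hne2⟩ := axis_not_conj n
  have h3 : diag ^ (3 : ℤ) = 1 := by decide +kernel
  have : diag ^ j = diag ^ (j % 3) := by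
    conv_lhs => rw [← Int.emod_add_mul_ediv j 3, zpow_add, zpow_mul, h3, one_zpow, mul_one]
  rw [this] at hj
  rcases (show j % 3 = 0 ∨ j % 3 = 1 ∨ j % 3 = 2 by omega) with e | e | e <;> rw [e] at hj
  · exact hax.1 (conj_eq_one_iff.1 (hj.symm.trans (zpow_zero _)))
  · exact hne1 (hj.symm.trans (zpow_one _))
  · exact hne2 (hj.symm.trans (by decide +kernel))

end Setting

/-- `G` is not simple. -/
theorem not_isSimpleGroup (S : Setting G) : ¬ IsSimpleGroup G := by
  intro hs
  classical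
  haveI := Fintype.ofFinite S.N
  haveI := Fintype.ofFinite (IrrCharacter G)
  have key : ∀ S : Setting G, ¬ IsConj (S.e zee) (S.e refl2) → False := by
    intro S hz2
    haveI := Fintype.ofFinite S.N
    have h12 := S.not_isConj_refl
    have hz : ∀ c, S.e (rep c) * S.e (rep c) = 1 ∧ S.e (rep c) ≠ 1 := fun c => by
      refine ⟨by rw [← map_mul, (rep_sq c).1, map_one], fun e => (rep_sq c).2 ?_⟩
      exact S.inj (e.trans (map_one _).symm)
    have hl : ∀ c, IsConj (S.e refl2) (S.e (rep c)) ↔ setC c = true := by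
      intro c
      fin_cases c
      · exact iff_of_false (fun h => hz2 h.symm) (by decide)
      · exact iff_of_false (fun h => h12 h.symm) (by decide)
      · exact iff_of_true (IsConj.refl _) (by decide)
    by_cases hz1 : IsConj (S.e zee) (S.e refl1)
    · refine S.false_of_classes (S.e refl1) (S.e refl2) (hz 1).1 (hz 2).1 (hz 1).2 (hz 2).2 setB setC
        (fun c => ?_) hl momentsB (Or.inr rfl) (fun i => ?_)
      · fin_cases c
        · exact iff_of_true hz1.symm (by decide)
        · exact iff_of_true (IsConj.refl _) (by decide)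
        · exact iff_of_false h12 (by decide)
      · obtain ⟨a1, a2, a3, a4, a5, a6, a7, a8, a9, a10, a11, a12⟩ := pairSum_beta
        fin_cases i <;> simp [momentsB, a1, a2, a3, a4, a5, a6, a7, a8, a9, a10, a11, a12] <;> norm_num
    · refine S.false_of_classes (S.e refl1) (S.e refl2) (hz 1).1 (hz 2).1 (hz 1).2 (hz 2).2 setA setC
        (fun c => ?_) hl momentsA (Or.inl rfl) (fun i => ?_)
      · fin_cases c
        · exact iff_of_false (fun h => hz1 h.symm) (by decide)
        · exact iff_of_true (IsConj.refl _) (by decide)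
        · exact iff_of_false h12 (by decide)
      · obtain ⟨a1, a2, a3, a4, a5, a6, a7, a8, a9, a10, a11, a12⟩ := pairSum_alpha
        fin_cases i <;> simp [momentsA, a1, a2, a3, a4, a5, a6, a7, a8, a9, a10, a11, a12] <;> norm_num
  by_cases h : IsConj (S.e zee) (S.e refl2)
  · refine key S.swap ?_
    rw [S.swap_apply, S.swap_apply, tauFun_refl.2.2, tauFun_refl.2.1]
    exact fun h1 => S.not_isConj_refl (h1.symm.trans h)
  · exact key S h

end CfsgLib.OrderDegrees.NineD8
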