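import Mathlib.GroupTheory.SemidirectProduct
import Mathlib.GroupTheory.SpecificGroups.Dihedral
import Mathlib.GroupTheory.Perm.Basic
import Mathlib.Data.ZMod.Basic
import Mathlib.Data.Fintype.Perm
import Mathlib.Algebra.BigOperators.Group.Finset.Basic

/-!
# A model of the group `3² : D₈`

The monomial group `(ZMod 3)² ⋊ D₈` of order 72, its action on six points, four generalized
characters vanishing away from the elements of order divisible by three, and the numbers which
the recognition argument needs.
-/

set_option autoImplicit false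

namespace CfsgLib.OrderDegrees.NineD8

/-- The plane over the field of three elements, written multiplicatively. -/
abbrev V : Type := Multiplicative (ZMod 3 × ZMod 3)

/-- The monomial action of `D₈`: `r` maps `(x, y)` to `(-y, x)`, `sr 0` to `(x, -y)`. -/
def act : DihedralGroup 4 → ZMod 3 × ZMod 3 → ZMod 3 × ZMod 3
  | .r i, v => (fun w : ZMod 3 × ZMod 3 => (-w.2, w.1))^[i.val] v
  | .sr i, v =>
    let w := (fun w : ZMod 3 × ZMod 3 => (-w.2, w.1))^[i.val] v
    (w.1, -w.2)

theorem act_mul : ∀ (a b : DihedralGroup 4) (v : ZMod 3 × ZMod 3),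
    act (a * b) v = act a (act b v) := by decide +kernel

theorem act_add : ∀ (a : DihedralGroup 4) (v w : ZMod 3 × ZMod 3),
    act a (v + w) = act a v + act a w := by decide +kernel

theorem act_one : ∀ v : ZMod 3 × ZMod 3, act 1 v = v := by decide +kernel

/-- The action as automorphisms. -/
def aut : DihedralGroup 4 →* MulAut V where
  toFun a :=
    { toFun := fun v => Multiplicative.ofAdd (act a v.toAdd)
      invFun := fun v => Multiplicative.ofAdd (act a⁻¹ v.toAdd)
      left_inv := fun v => by simp [← act_mul, act_one]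
      right_inv := fun v => by simp [← act_mul, act_one]
      map_mul' := fun v w => by simp [act_add, ofAdd_add] }
  map_one' := MulEquiv.ext fun v => Multiplicative.toAdd.injective (act_one v.toAdd)
  map_mul' a b := MulEquiv.ext fun v => Multiplicative.toAdd.injective (act_mul a b v.toAdd)

/-- The group of order 72. -/
abbrev N0 : Type := V ⋊[aut] DihedralGroup 4

instance : Fintype N0 :=
  Fintype.ofEquiv (V × DihedralGroup 4)
    { toFun := fun p => ⟨p.1, p.2⟩
      invFun := fun n => (n.left, n.right)
      left_inv := fun _ => rfl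
      right_inv := fun _ => rfl }

/-- A point `(i, x)` stands for the line `{u | u i = x}`; this is its image. -/
def perm6Fun (n : N0) (p : Fin 2 × ZMod 3) : Fin 2 × ZMod 3 :=
  let w := act n.right (if p.1 = 0 then (1, 0) else (0, 1))
  let v := n.left.toAdd
  if w.2 = 0 then (0, v.1 + w.1 * p.2) else (1, v.2 + w.2 * p.2)

theorem perm6Fun_mul : ∀ (a b : N0) (p : Fin 2 × ZMod 3),
    perm6Fun (a * b) p = perm6Fun a (perm6Fun b p) := by decide +kernel

theorem perm6Fun_one : ∀ p : Fin 2 × ZMod 3, perm6Fun 1 p = p := by decide +kernel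

/-- The action on six points. -/
def perm6 : N0 →* Equiv.Perm (Fin 2 × ZMod 3) where
  toFun n :=
    { toFun := perm6Fun n
      invFun := perm6Fun n⁻¹
      left_inv := fun p => by rw [← perm6Fun_mul, inv_mul_cancel, perm6Fun_one]
      right_inv := fun p => by rw [← perm6Fun_mul, mul_inv_cancel, perm6Fun_one] }
  map_one' := by ext1 p; exact perm6Fun_one p
  map_mul' a b := by ext1 p; exact perm6Fun_mul a b p

/-- The number of fixed points on the six points. -/
def fix6 (n : N0) : ℕ := ∑ p : Fin 2 × ZMod 3, if perm6Fun n p = p then 1 else 0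

/-- The projection onto the complement. -/
def proj : N0 →* N0 := SemidirectProduct.inr.comp SemidirectProduct.rightHom

/-- A linear character of the model. -/
def sgnFun : DihedralGroup 4 → ℤ
  | .r i => if i.val % 2 = 0 then 1 else -1
  | .sr i => if i.val % 2 = 0 then -1 else 1

theorem sgnFun_mul : ∀ a b : DihedralGroup 4, sgnFun (a * b) = sgnFun a * sgnFun b := by
  decide +kernel

/-- The linear character as a homomorphism. -/
def sgn : N0 →* ℤ where
  toFun n := sgnFun n.right
  map_one' := by decide +kernel
  map_mul' a b := by rw [SemidirectProduct.mul_right]; exact sgnFun_mul _ _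

/-- The outer automorphism exchanging the axes and the diagonals. -/
def tauFun (n : N0) : N0 :=
  ⟨Multiplicative.ofAdd (n.left.toAdd.1 + n.left.toAdd.2, n.left.toAdd.1 - n.left.toAdd.2),
    match n.right with
    | .r i => .r (-i)
    | .sr i => .sr (3 - i)⟩

theorem tauFun_mul : ∀ a b : N0, tauFun (a * b) = tauFun a * tauFun b := by decide +kernel

theorem tauFun_bijective : Function.Bijective tauFun := by decide +kernel

/-- The outer automorphism. -/
noncomputable def tau : N0 ≃* N0 :=
  MulEquiv.ofBijective (MonoidHom.mk' tauFun tauFun_mul) tauFun_bijective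

/-- The four generalized characters. -/
def vfun : Fin 4 → N0 → ℤ
  | 0, n => (fix6 (proj n) : ℤ) - fix6 n
  | 1, n => (fix6 (proj (tauFun n)) : ℤ) - fix6 (tauFun n)
  | 2, n => sgn (tauFun n) * ((fix6 (proj (tauFun n)) : ℤ) - fix6 (tauFun n))
  | 3, n => sgn n * ((fix6 (proj n) : ℤ) - fix6 n)

/-- Their Gram matrix, times one. -/
def gram : Fin 4 → Fin 4 → ℤ
  | i, j => if i = j then 4 else if i.val + j.val = 3 then 1 else 2

/-- The elements of order divisible by three are those with `n ^ 4 ≠ 1`. -/
def Special (n : N0) : Prop := n ^ 4 ≠ 1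

instance : DecidablePred Special := fun n => inferInstanceAs (Decidable (n ^ 4 ≠ 1))

theorem vfun_eq_zero : ∀ (i : Fin 4) (n : N0), n ^ 4 = 1 → vfun i n = 0 := by decide +kernel

theorem vfun_inner : ∀ i j : Fin 4, ∑ n : N0, vfun i n * vfun j n = 72 * gram i j := by
  decide +kernel

theorem vfun_sum : ∀ i : Fin 4, ∑ n : N0, vfun i n = if i.val < 2 then 72 else 0 := by
  decide +kernel

/-- The sum of the four is constant on the translations. -/
theorem vfun_translation : ∀ n : N0, ∑ i : Fin 4, vfun i n =
    if n.right = 1 ∧ n.left ≠ 1 then 18 else 0 := by decide +kernel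

/-- The central involution. -/
def zee : N0 := ⟨1, .r 2⟩

/-- A reflection fixing an axis. -/
def refl1 : N0 := ⟨1, .sr 0⟩

/-- A reflection fixing a diagonal. -/
def refl2 : N0 := ⟨1, .sr 3⟩

theorem tauFun_refl : tauFun refl1 = refl2 ∧ tauFun refl2 = refl1 ∧ tauFun zee = zee := by
  decide +kernel

/-- The class of an involution: `0` for `zee`, `1` for `refl1`, `2` for `refl2`. -/
def cls (n : N0) : Fin 3 :=
  match n.right with
  | .r _ => 0
  | .sr i => if i.val % 2 = 0 then 1 else 2

/-- The representative of each class of involutions. -/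
def rep : Fin 3 → N0
  | 0 => zee
  | 1 => refl1
  | 2 => refl2

theorem isConj_rep : ∀ n : N0, n * n = 1 → n ≠ 1 →
    ∃ c : N0, c * rep (cls n) * c⁻¹ = n := by decide +kernel

theorem rep_sq : ∀ i : Fin 3, rep i * rep i = 1 ∧ rep i ≠ 1 := by decide +kernel

/-- The involution pairs with weights. -/
def pairSum (i : Fin 4) (k l : Fin 3 → Bool) : ℤ :=
  ∑ x ∈ (Finset.univ : Finset N0).filter (fun x => x * x = 1 ∧ x ≠ 1),
    ∑ y ∈ (Finset.univ : Finset N0).filter (fun y => y * y = 1 ∧ y ≠ 1),
      if k (cls x) && l (cls y) then vfun i (x * y) else 0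

/-- The class of `refl1` when it is the only one in its fusion class. -/
def setA : Fin 3 → Bool := fun c => decide (c = 1)

/-- The classes fused with `refl1` when `zee` is. -/
def setB : Fin 3 → Bool := fun c => decide (c ≠ 2)

/-- The class of `refl2`. -/
def setC : Fin 3 → Bool := fun c => decide (c = 2)

theorem pairSum_alpha : pairSum 0 setA setA = 36 ∧ pairSum 0 setA setC = 0 ∧
    pairSum 0 setC setC = 72 ∧ pairSum 1 setA setA = 72 ∧ pairSum 1 setA setC = 0 ∧
    pairSum 1 setC setC = 36 ∧ pairSum 2 setA setA = 72 ∧ pairSum 2 setA setC = 0 ∧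
    pairSum 2 setC setC = 36 ∧ pairSum 3 setA setA = 36 ∧ pairSum 3 setA setC = 0 ∧
    pairSum 3 setC setC = 72 := by decide +kernel

theorem pairSum_beta : pairSum 0 setB setB = 576 ∧ pairSum 0 setB setC = 0 ∧
    pairSum 0 setC setC = 72 ∧ pairSum 1 setB setB = 396 ∧ pairSum 1 setB setC = 108 ∧
    pairSum 1 setC setC = 36 ∧ pairSum 2 setB setB = 396 ∧ pairSum 2 setB setC = -108 ∧
    pairSum 2 setC setC = 36 ∧ pairSum 3 setB setB = 144 ∧ pairSum 3 setB setC = 0 ∧
    pairSum 3 setC setC = 72 := by decide +kernel

/-- An axis translation commutes with `refl1`, a diagonal one with `refl2`. -/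
def axis : N0 := ⟨Multiplicative.ofAdd (1, 0), 1⟩

/-- A diagonal translation. -/
def diag : N0 := tauFun axis

theorem axis_comm : axis * refl1 = refl1 * axis ∧ diag * refl2 = refl2 * diag := by
  decide +kernel

theorem axis_not_conj : ∀ c : N0, c * axis * c⁻¹ ≠ diag ∧ c * axis * c⁻¹ ≠ diag⁻¹ := by
  decide +kernel

theorem axis_props : axis ≠ 1 ∧ diag ≠ 1 ∧ axis.right = 1 ∧ diag.right = 1 := by decide +kernel

theorem involution_not_special : ∀ n : N0, n * n = 1 → n ^ 4 = 1 := by decide +kernel

end CfsgLib.OrderDegrees.NineD8
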