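import Cfsg.Agent.Lib.OrderDegrees.NineD8.Model
import Mathlib.GroupTheory.Sylow
import Mathlib.GroupTheory.PGroup

/-!
# The normalizer is isomorphic to the model `3² : D₈`
-/

set_option autoImplicit false
set_option linter.style.haveILetI false

namespace CfsgLib.OrderDegrees.NineD8

open DihedralGroup

variable {G : Type*} [Group G] [Finite G]

/-- An element of prime order at least five normalizing a self-centralizing group of order nine
lies in it. -/
theorem not_dvd_card_normalizer {M N : Subgroup G} (h9 : Nat.card M = 9)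
    (hCM : Subgroup.centralizer (M : Set G) = M) (hN : N ≤ Subgroup.normalizer (M : Set G))
    {q : ℕ} (hq : q.Prime) (h5 : 5 ≤ q) : ¬ q ∣ Nat.card N := by
  intro hdvd
  haveI := Fact.mk hq
  obtain ⟨⟨y, hyN⟩, hy⟩ := exists_prime_orderOf_dvd_card' (G := N) q hdvd
  rw [Subgroup.orderOf_mk] at hy
  let Y := Subgroup.zpowers y
  have hYN : Y ≤ Subgroup.normalizer (M : Set G) := Subgroup.zpowers_le.2 (hN hyN)
  have hmem : ∀ (u : Y) (m : M), (u : G) * m * (u : G)⁻¹ ∈ M := fun u m =>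
    (Subgroup.mem_normalizer_iff.1 (hYN u.2) m).1 m.2
  letI : MulAction Y M :=
    { smul := fun u m => ⟨(u : G) * m * (u : G)⁻¹, hmem u m⟩
      one_smul := fun m => Subtype.ext (by show (1 : G) * m * (1 : G)⁻¹ = m; simp)
      mul_smul := fun u w m => Subtype.ext (by
        show ((u : G) * w) * m * ((u : G) * w)⁻¹ = (u : G) * ((w : G) * m * (w : G)⁻¹) * (u : G)⁻¹
        group) }
  have hY : IsPGroup q Y := IsPGroup.of_card (n := 1) (by rw [Nat.card_zpowers, hy, pow_one])
  have hmod := hY.card_modEq_card_fixedPoints M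
  let F : Subgroup G := M ⊓ Subgroup.centralizer ({y} : Set G)
  have hF : Nat.card (MulAction.fixedPoints Y M) = Nat.card F := by
    refine Nat.card_congr
      { toFun := fun m => ⟨(m : M), (m : M).2, ?_⟩
        invFun := fun f => ⟨⟨(f : G), f.2.1⟩, ?_⟩
        left_inv := fun _ => rfl
        right_inv := fun _ => rfl }
    · have h := congrArg Subtype.val (m.2 ⟨y, Subgroup.mem_zpowers y⟩)
      change y * ((m : M) : G) * y⁻¹ = ((m : M) : G) at h
      exact Subgroup.mem_centralizer_singleton_iff.2 (mul_inv_eq_iff_eq_mul.1 h).symm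
    · intro u
      refine Subtype.ext ?_
      show (u : G) * f * (u : G)⁻¹ = f
      obtain ⟨k, hk⟩ := Subgroup.mem_zpowers_iff.1 u.2
      have hc : Commute y (f : G) := (Subgroup.mem_centralizer_singleton_iff.1 f.2.2).symm
      rw [← hk, (hc.zpow_left k).eq, mul_inv_cancel_right]
  have hFd : Nat.card F ∣ 9 := h9 ▸ Subgroup.card_dvd_of_le inf_le_left
  have hFc : Nat.card F = 9 := by
    rw [h9, hF] at hmod
    have hle : Nat.card F ≤ 9 := Nat.le_of_dvd (by norm_num) hFd
    have hd : q ∣ 9 - Nat.card F := (Nat.modEq_iff_dvd' hle).1 hmod.symm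
    have hcases : Nat.card F = 1 ∨ Nat.card F = 3 ∨ Nat.card F = 9 := by
      interval_cases Nat.card F <;> simp_all
    rcases hcases with h | h | h
    · rw [h] at hd
      have := (Nat.Prime.dvd_of_dvd_pow hq (n := 3) (m := 2) (by norm_num at hd ⊢; exact hd))
      have := Nat.le_of_dvd (by norm_num) this
      omega
    · rw [h] at hd
      rcases (Nat.Prime.dvd_mul hq).1 (show q ∣ 2 * 3 from hd) with h' | h' <;>
        · have := Nat.le_of_dvd (by norm_num) h'
          omega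
    · exact h
  have hMF : M ≤ Subgroup.centralizer ({y} : Set G) := by
    have : F = M := Subgroup.eq_of_le_of_card_ge inf_le_left (by omega)
    exact this ▸ inf_le_right
  have hyM : y ∈ M := by
    rw [← hCM, Subgroup.mem_centralizer_iff]
    exact fun m hm => Subgroup.mem_centralizer_singleton_iff.1 (hMF hm)
  have hd9 : q ∣ 9 := hy ▸ Subgroup.orderOf_mk y hyM ▸ (h9 ▸ orderOf_dvd_natCard (⟨y, hyM⟩ : M))
  have := Nat.le_of_dvd (by norm_num) (Nat.Prime.dvd_of_dvd_pow hq (m := 3) (n := 2) (by norm_num; exact hd9))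
  omega

variable (M : Sylow 3 G) (N : Subgroup G) (hN : N = Subgroup.normalizer ((M : Subgroup G) : Set G))
  (hM9 : Nat.card ↥(M : Subgroup G) = 9)
  (hCM : Subgroup.centralizer ((M : Subgroup G) : Set G) = (M : Subgroup G))
  (hMel : ∀ m ∈ (M : Subgroup G), m ^ 3 = 1)
  (hS : ∀ S : Sylow 2 ↥N, Nonempty (↥(S : Subgroup ↥N) ≃* DihedralGroup 4))

include hN hM9 hCM hS in
/-- The normalizer has order 72. -/
theorem card_N : Nat.card N = 72 := by
  haveI := Fact.mk Nat.prime_two
  haveI := Fact.mk Nat.prime_three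
  obtain ⟨S⟩ := (inferInstance : Nonempty (Sylow 2 N))
  have h8 : Nat.card (S : Subgroup N) = 8 := by
    obtain ⟨e⟩ := hS S
    rw [Nat.card_congr e.toEquiv, DihedralGroup.nat_card]
  have hMN : (M : Subgroup G) ≤ N := hN ▸ Subgroup.le_normalizer
  have h9 : 9 ∣ Nat.card N := hM9 ▸ Subgroup.card_dvd_of_le hMN
  have h8' : 8 ∣ Nat.card N := h8 ▸ Subgroup.card_subgroup_dvd_card _
  obtain ⟨k, hk⟩ : 72 ∣ Nat.card N :=
    (Nat.Coprime.mul_dvd_of_dvd_of_dvd (by norm_num : Nat.Coprime 8 9) h8' h9)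
  rcases Nat.eq_zero_or_pos k with h0 | hpos
  · have := Nat.card_pos (α := N); subst h0; omega
  by_contra hne
  obtain ⟨q, hq, hqk⟩ := Nat.exists_prime_and_dvd (show k ≠ 1 by rintro rfl; exact hne hk)
  have hq2 : q ≠ 2 := by
    rintro rfl
    obtain ⟨j, rfl⟩ := hqk
    have h16 : 2 ^ 4 ∣ Nat.card N := ⟨9 * j, by rw [hk]; ring⟩
    have := Sylow.card_eq_multiplicity S
    rw [h8] at this
    have hle := (Nat.Prime.pow_dvd_iff_le_factorization Nat.prime_two Nat.card_pos.ne').1 h16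
    have : (2 : ℕ) ^ 4 ≤ 8 := this ▸ Nat.pow_le_pow_right (by norm_num) hle
    norm_num at this
  have hq3 : q ≠ 3 := by
    rintro rfl
    obtain ⟨j, rfl⟩ := hqk
    have h27 : 3 ^ 3 ∣ Nat.card G :=
      (show 3 ^ 3 ∣ Nat.card N from ⟨8 * j, by rw [hk]; ring⟩).trans (Subgroup.card_subgroup_dvd_card N)
    have := Sylow.card_eq_multiplicity M
    rw [hM9] at this
    have hle := (Nat.Prime.pow_dvd_iff_le_factorization Nat.prime_three Nat.card_pos.ne').1 h27
    have : (3 : ℕ) ^ 3 ≤ 9 := this ▸ Nat.pow_le_pow_right (by norm_num) hle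
    norm_num at this
  have h5 : 5 ≤ q := by
    have := hq.two_le
    rcases lt_or_ge q 5 with h | h
    · interval_cases q <;> simp_all (config := { decide := true })
    · exact h
  exact not_dvd_card_normalizer hM9 hCM hN.le hq h5 (hk ▸ Dvd.dvd.mul_left hqk 72)

/-- A set of generators of `D₈` under multiplication. -/
theorem dihedral_word : ∀ d : DihedralGroup 4, ∃ a : Fin 2, ∃ i : Fin 4,
    d = sr (0 : ZMod 4) ^ (a : ℕ) * r (1 : ZMod 4) ^ (i : ℕ) := by decide +kernel

omit [Finite G] in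
/-- A commuting pair of elements of exponent three gives a homomorphism from the plane. -/
theorem exists_planeHom {a b : G} (ha : a ^ 3 = 1) (hb : b ^ 3 = 1) (hab : Commute a b) :
    ∃ f : V →* G, ∀ v : V, f v = a ^ v.toAdd.1.val * b ^ v.toAdd.2.val := by
  refine ⟨MonoidHom.mk' (fun v => a ^ v.toAdd.1.val * b ^ v.toAdd.2.val) fun v w => ?_, fun _ => rfl⟩
  have key : ∀ (c : G), c ^ 3 = 1 → ∀ x y : ZMod 3, c ^ (x + y).val = c ^ x.val * c ^ y.val := by
    intro c hc x y
    rw [ZMod.val_add, ← pow_eq_pow_mod _ hc, pow_add]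
  show a ^ (v.toAdd.1 + w.toAdd.1).val * b ^ (v.toAdd.2 + w.toAdd.2).val = _
  rw [key a ha, key b hb, mul_assoc, mul_assoc]
  congr 1
  rw [← mul_assoc, ← mul_assoc, (hab.pow_pow w.toAdd.1.val v.toAdd.2.val).eq]

include hN hM9 hCM hMel hS in
/-- The normalizer is a copy of the model. -/
theorem exists_emb : ∃ e : N0 →* G, Function.Injective e ∧ e.range = N ∧
    ∀ n : N0, e n ∈ (M : Subgroup G) ↔ n.right = 1 := by
  classical
  haveI := Fact.mk Nat.prime_two
  haveI := Fact.mk Nat.prime_three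
  obtain ⟨S⟩ := (inferInstance : Nonempty (Sylow 2 N))
  obtain ⟨eS⟩ := hS S
  let φ : DihedralGroup 4 →* G := (N.subtype.comp (S : Subgroup N).subtype).comp eS.symm.toMonoidHom
  have hφ : Function.Injective φ :=
    (N.subtype_injective.comp (S : Subgroup N).subtype_injective).comp eS.symm.injective
  have hφN : ∀ d, φ d ∈ N := fun d => ((eS.symm d : (S : Subgroup N)) : N).2
  have hconj : ∀ d, ∀ m ∈ (M : Subgroup G), φ d * m * (φ d)⁻¹ ∈ (M : Subgroup G) := fun d m hm =>
    (Subgroup.mem_normalizer_iff.1 (hN ▸ hφN d : φ d ∈ Subgroup.normalizer _) m).1 hm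
  have hinter : ∀ d, φ d ∈ (M : Subgroup G) → d = 1 := by
    intro d hd
    have h1 : orderOf (φ d) ∣ 9 := by
      rw [← Subgroup.orderOf_mk (φ d) hd]
      exact hM9 ▸ orderOf_dvd_natCard (⟨φ d, hd⟩ : (M : Subgroup G))
    have h2 : orderOf (φ d) ∣ 8 := by
      rw [orderOf_injective φ hφ]
      have := orderOf_dvd_natCard d
      rwa [DihedralGroup.nat_card] at this
    have := Nat.eq_one_of_dvd_coprimes (by norm_num : Nat.Coprime 8 9) h2 h1
    exact hφ (by rw [map_one]; exact orderOf_eq_one_iff.1 this)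
  have hfaith : ∀ d, (∀ m ∈ (M : Subgroup G), φ d * m * (φ d)⁻¹ = m) → d = 1 := fun d hd =>
    hinter d (by
      rw [← hCM, Subgroup.mem_centralizer_iff]
      exact fun m hm => (mul_inv_eq_iff_eq_mul.1 (hd m hm)).symm)
  have hcomm : ∀ x ∈ (M : Subgroup G), ∀ y ∈ (M : Subgroup G), Commute x y := fun x hx y hy => by
    rw [← hCM, Subgroup.mem_centralizer_iff] at hy
    exact hy x hx
  have hne : ∀ {m : G}, m ^ 3 = 1 → m ^ 2 = 1 → m = 1 := fun {m} h3 h2 => by
    calc m = m ^ 3 * (m ^ 2)⁻¹ := by group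
      _ = 1 := by rw [h3, h2]; simp
  have hz4 : φ (r 1) * φ (r 1) = φ (r 2) := by rw [← map_mul]; rfl
  -- the central involution inverts `M`
  have hz : ∀ m ∈ (M : Subgroup G), φ (r 2) * m * (φ (r 2))⁻¹ = m⁻¹ := by
    intro m hm
    set c : MulAut G := MulAut.conj (φ (r 2)) with hc
    have hcc : ∀ w, c (c w) = w := fun w => by
      simp only [hc, MulAut.conj_apply]
      have h2 : φ (r 2) * φ (r 2) = 1 := by rw [← map_mul]; exact map_one φ
      have h2' : (φ (r 2))⁻¹ = φ (r 2) := inv_eq_of_mul_eq_one_right h2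
      rw [h2', show φ (r 2) * (φ (r 2) * w * φ (r 2)) * φ (r 2) =
        (φ (r 2) * φ (r 2)) * w * (φ (r 2) * φ (r 2)) by group, h2]
      simp
    by_contra hbad
    have hcm : c m ∈ (M : Subgroup G) := hconj _ m hm
    have hg : m * c m ≠ 1 := fun e => hbad (inv_eq_of_mul_eq_one_right e).symm
    set g := m * c m with hgdef
    have hgM : g ∈ (M : Subgroup G) := mul_mem hm hcm
    have hgfix : c g = g := by
      rw [hgdef, map_mul, hcc]; exact (hcomm _ hcm _ hm).eq
    obtain ⟨m', hm', hh⟩ : ∃ m' ∈ (M : Subgroup G), m'⁻¹ * c m' ≠ 1 := by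
      by_contra hall
      push Not at hall
      have := hfaith (r 2) fun w hw => (inv_mul_eq_one.1 (hall w hw)).symm
      exact absurd this (by decide)
    set h := m'⁻¹ * c m' with hhdef
    have hcm' : c m' ∈ (M : Subgroup G) := hconj _ m' hm'
    have hhM : h ∈ (M : Subgroup G) := mul_mem (inv_mem hm') hcm'
    have hhinv : c h = h⁻¹ := by
      rw [hhdef, map_mul, map_inv, hcc, mul_inv_rev, inv_inv]
    let I : Subgroup G :=
      { carrier := {w | w ∈ (M : Subgroup G) ∧ c w = w⁻¹}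
        one_mem' := ⟨one_mem _, by simp⟩
        mul_mem' := fun {u w} hu hw => ⟨mul_mem hu.1 hw.1, by
          rw [map_mul, hu.2, hw.2, mul_inv_rev]
          exact (hcomm _ (inv_mem hu.1) _ (inv_mem hw.1)).eq⟩
        inv_mem' := fun {u} hu => ⟨inv_mem hu.1, by rw [map_inv, hu.2]⟩ }
    have hIle : I ≤ (M : Subgroup G) := fun w hw => hw.1
    have hI3 : I ≤ Subgroup.zpowers h := by
      have hd : Nat.card I ∣ 3 ^ 2 := by
        rw [show (3:ℕ) ^ 2 = Nat.card (M : Subgroup G) by rw [hM9]; norm_num]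
        exact Subgroup.card_dvd_of_le hIle
      have hlt : Nat.card I ≠ 9 := fun e => by
        have : I = (M : Subgroup G) := Subgroup.eq_of_le_of_card_ge hIle (by omega)
        have hgI : g ∈ I := this ▸ hgM
        refine hg (hne (hMel g hgM) ?_)
        have := hgI.2
        rw [hgfix] at this
        rw [pow_two]; nth_rewrite 1 [this]; simp
      have h3 : Nat.card (Subgroup.zpowers h) = 3 := by
        rw [Nat.card_zpowers]; exact orderOf_eq_prime (hMel h hhM) hh
      have hle : Subgroup.zpowers h ≤ I := Subgroup.zpowers_le.2 ⟨hhM, hhinv⟩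
      refine (Subgroup.eq_of_le_of_card_ge hle ?_).ge
      obtain ⟨k, hk, hk'⟩ := (Nat.dvd_prime_pow Nat.prime_three).1 hd
      rw [h3, hk']
      interval_cases k <;> norm_num
      exact hlt (by rw [hk']; norm_num)
    set R : MulAut G := MulAut.conj (φ (r 1)) with hR
    have hRR : R (R h) = h⁻¹ := by
      rw [← hhinv, hR, hc, ← MulAut.mul_apply, ← map_mul, hz4]
    have hRh : R h ∈ I := by
      refine ⟨hconj _ h hhM, ?_⟩
      have hRc : c (R h) = R (c h) := by
        rw [hc, hR, ← MulAut.mul_apply, ← map_mul, ← MulAut.mul_apply, ← map_mul, ← map_mul,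
          ← map_mul]
        rfl
      rw [hRc, hhinv, map_inv]
    obtain ⟨j, hj⟩ := Subgroup.mem_zpowers_iff.1 (hI3 hRh)
    have hj2 : h ^ (j * j) = h⁻¹ := by
      rw [← hRR, ← hj, map_zpow, ← hj, ← zpow_mul]
    have hsum : h ^ (j * j + 1) = 1 := by rw [zpow_add, hj2, zpow_one, inv_mul_cancel]
    have h3 := orderOf_dvd_iff_zpow_eq_one.2 hsum
    rw [orderOf_eq_prime (hMel h hhM) hh] at h3
    have hmod : (((j * j + 1 : ℤ)) : ZMod 3) = 0 := (ZMod.intCast_zmod_eq_zero_iff_dvd _ 3).2 h3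
    push_cast at hmod
    revert hmod
    generalize (j : ZMod 3) = x
    revert x
    decide
  -- the fixed vector of the reflection
  obtain ⟨a, haM, ha1, hsa⟩ : ∃ a ∈ (M : Subgroup G), a ≠ 1 ∧
      φ (sr 0) * a * (φ (sr 0))⁻¹ = a := by
    by_contra hall
    push Not at hall
    set c : MulAut G := MulAut.conj (φ (sr 0)) with hc
    have hcc : ∀ w, c (c w) = w := fun w => by
      rw [hc, ← MulAut.mul_apply, ← map_mul, ← map_mul]
      simp
    have hinv : ∀ m ∈ (M : Subgroup G), c m = m⁻¹ := by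
      intro m hm
      have hcm : c m ∈ (M : Subgroup G) := hconj _ m hm
      by_contra h
      refine hall (m * c m) (mul_mem hm hcm) (fun e => h (inv_eq_of_mul_eq_one_right e).symm) ?_
      show c (m * c m) = m * c m
      rw [map_mul, hcc]; exact (hcomm _ hcm _ hm).eq
    have h2 : ∀ m ∈ (M : Subgroup G), φ (sr 0 * r 2) * m * (φ (sr 0 * r 2))⁻¹ = m := by
      intro m hm
      rw [map_mul, show φ (sr 0) * φ (r 2) * m * (φ (sr 0) * φ (r 2))⁻¹ =
        φ (sr 0) * (φ (r 2) * m * (φ (r 2))⁻¹) * (φ (sr 0))⁻¹ by group, hz m hm]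
      have := hinv _ (inv_mem hm)
      rwa [inv_inv] at this
    exact absurd (hfaith _ h2) (by decide)
  set b : G := φ (r 1) * a * (φ (r 1))⁻¹ with hb
  have hbM : b ∈ (M : Subgroup G) := hconj _ a haM
  obtain ⟨f, hf⟩ := exists_planeHom (hMel a haM) (hMel b hbM) (hcomm a haM b hbM)
  have hfM : ∀ v, f v ∈ (M : Subgroup G) := fun v => by
    rw [hf]; exact mul_mem (pow_mem haM _) (pow_mem hbM _)
  have hzb : φ (r 1) * b * (φ (r 1))⁻¹ = a⁻¹ := by
    rw [hb, show φ (r 1) * (φ (r 1) * a * (φ (r 1))⁻¹) * (φ (r 1))⁻¹ =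
      (φ (r 1) * φ (r 1)) * a * (φ (r 1) * φ (r 1))⁻¹ by group, hz4]
    exact hz a haM
  have hsb : φ (sr 0) * b * (φ (sr 0))⁻¹ = b⁻¹ := by
    have h1 : φ (sr 0) * φ (r 1) = φ (r 2) * φ (r 1) * φ (sr 0) := by
      rw [← map_mul, ← map_mul, ← map_mul]; rfl
    rw [hb, show φ (sr 0) * (φ (r 1) * a * (φ (r 1))⁻¹) * (φ (sr 0))⁻¹ =
      (φ (sr 0) * φ (r 1)) * a * (φ (sr 0) * φ (r 1))⁻¹ by group, h1,
      show φ (r 2) * φ (r 1) * φ (sr 0) * a * (φ (r 2) * φ (r 1) * φ (sr 0))⁻¹ =
      φ (r 2) * (φ (r 1) * (φ (sr 0) * a * (φ (sr 0))⁻¹) * (φ (r 1))⁻¹) * (φ (r 2))⁻¹ by group,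
      hsa, ← hb, hz b hbM]
  have hdiff : ∀ d : DihedralGroup 4, ∀ v : V, f (aut d v) = φ d * f v * (φ d)⁻¹ := by
    have hgen : ∀ d : DihedralGroup 4, d = r 1 ∨ d = sr 0 →
        ∀ v : V, f (aut d v) = φ d * f v * (φ d)⁻¹ := by
      intro d hd v
      have hR : φ d * f v * (φ d)⁻¹ = (φ d * a * (φ d)⁻¹) ^ v.toAdd.1.val *
          (φ d * b * (φ d)⁻¹) ^ v.toAdd.2.val := by
        rw [conj_pow, conj_pow, hf]; group
      rw [hR, hf]
      have hneg : ∀ {m : G}, m ^ 3 = 1 → ∀ x : ZMod 3, m⁻¹ ^ x.val = m ^ (-x).val := by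
        intro m hm x
        rw [inv_pow, inv_eq_iff_mul_eq_one, ← pow_add, pow_eq_pow_mod _ hm, ← ZMod.val_add,
          add_neg_cancel, ZMod.val_zero, pow_zero]
      rcases hd with rfl | rfl
      · rw [← hb, hzb, hneg (hMel a haM), (hcomm _ (pow_mem hbM _) _ (pow_mem haM _)).eq]
        rfl
      · rw [hsa, hsb, hneg (hMel b hbM)]
        rfl
    have hmul : ∀ d d', (∀ v : V, f (aut d v) = φ d * f v * (φ d)⁻¹) →
        (∀ v : V, f (aut d' v) = φ d' * f v * (φ d')⁻¹) →
        ∀ v : V, f (aut (d * d') v) = φ (d * d') * f v * (φ (d * d'))⁻¹ := by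
      intro d d' h h' v
      rw [map_mul, MulAut.mul_apply, h, h', map_mul]; group
    have hpow : ∀ d, (∀ v : V, f (aut d v) = φ d * f v * (φ d)⁻¹) → ∀ (k : ℕ) (v : V),
        f (aut (d ^ k) v) = φ (d ^ k) * f v * (φ (d ^ k))⁻¹ := by
      intro d h k
      induction k with
      | zero => intro v; simp
      | succ k ih => rw [pow_succ]; exact hmul _ _ ih h
    intro d
    obtain ⟨i, j, rfl⟩ := dihedral_word d
    exact hmul _ _ (hpow _ (hgen _ (Or.inr rfl)) _) (hpow _ (hgen _ (Or.inl rfl)) _)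
  let e : N0 →* G := SemidirectProduct.lift f φ (fun d => MonoidHom.ext fun v => by
    simpa using hdiff d v)
  have hen : ∀ n : N0, e n = f n.left * φ n.right := fun n => rfl
  have hfinj : ∀ v : V, f v = 1 → v = 1 := by
    have hnb : ∀ x : ZMod 3, b ≠ a ^ x.val := by
      intro x hx
      have hc : Commute (φ (sr 0)) a := mul_inv_eq_iff_eq_mul.1 hsa
      have hfix : φ (sr 0) * b * (φ (sr 0))⁻¹ = b := by
        rw [hx, (hc.pow_right _).eq, mul_inv_cancel_right]
      rw [hsb] at hfix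
      have hb1 : b = 1 := hne (hMel b hbM) (by rw [pow_two]; nth_rewrite 1 [← hfix]; simp)
      exact ha1 (conj_eq_one_iff.1 hb1)
    intro v hv
    rw [hf] at hv
    have hy : v.toAdd.2 = 0 := by
      by_contra hy
      have h3 : ∀ y : ZMod 3, y ≠ 0 → y.val * y.val % 3 = 1 := by decide
      have hbpow : b = (a ^ v.toAdd.1.val)⁻¹ ^ v.toAdd.2.val := by
        rw [← eq_inv_of_mul_eq_one_right hv, ← pow_mul, pow_eq_pow_mod _ (hMel b hbM), h3 _ hy,
          pow_one]
      rw [inv_pow, ← pow_mul, inv_eq_of_mul_eq_one_right (show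
        a ^ (v.toAdd.1.val * v.toAdd.2.val) * a ^ (2 * (v.toAdd.1.val * v.toAdd.2.val)) = 1 by
          rw [← pow_add, ← one_add_mul 2, pow_mul, hMel a haM, one_pow]),
        pow_eq_pow_mod _ (hMel a haM)] at hbpow
      refine hnb (((2 * (v.toAdd.1.val * v.toAdd.2.val)) : ℕ) : ZMod 3) ?_
      rw [ZMod.val_natCast]
      exact hbpow
    have hx : v.toAdd.1 = 0 := by
      rw [hy, ZMod.val_zero, pow_zero, mul_one] at hv
      have := orderOf_dvd_of_pow_eq_one hv
      rw [orderOf_eq_prime (hMel a haM) ha1] at this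
      exact (ZMod.val_eq_zero _).1 (Nat.eq_zero_of_dvd_of_lt this (ZMod.val_lt _))
    exact Multiplicative.toAdd.injective (Prod.ext hx hy)
  have hmem : ∀ n : N0, e n ∈ (M : Subgroup G) ↔ n.right = 1 := fun n => by
    rw [hen, Subgroup.mul_mem_cancel_left _ (hfM _)]
    exact ⟨hinter _, fun h => by rw [h, map_one]; exact one_mem _⟩
  have hinj : Function.Injective e := (injective_iff_map_eq_one e).2 fun n hn => by
    have hr : n.right = 1 := (hmem n).1 (hn ▸ one_mem _)
    rw [hen, hr, map_one, mul_one] at hn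
    exact SemidirectProduct.ext (hfinj _ hn) hr
  have hle : e.range ≤ N := by
    rintro _ ⟨n, rfl⟩
    rw [hen]
    exact mul_mem (hN ▸ Subgroup.le_normalizer (hfM _)) (hφN _)
  refine ⟨e, hinj, Subgroup.eq_of_le_of_card_ge hle ?_, hmem⟩
  rw [card_N M N hN hM9 hCM hS, ← Nat.card_congr (MonoidHom.ofInjective hinj).toEquiv,
    show Nat.card N0 = 72 by rw [SemidirectProduct.card, DihedralGroup.nat_card]; simp]

end CfsgLib.OrderDegrees.NineD8
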